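import Cfsg.Agent.Transfer.ThompsonPC.Endgame
import Cfsg.Agent.Coprime.PxQ
import Cfsg.Agent.Core.ThompsonComplement

/-! The automizer criterion for a normal complement. -/

set_option autoImplicit false
set_option linter.style.haveILetI false
set_option linter.unusedSectionVars false

namespace Cfsg.Agent.Transfer.ThompsonPC

open Cfsg Cfsg.Agent Cfsg.Agent.FusionZJ Subgroup
open Cfsg.Agent.Core.ThompsonComplement (npc_map exists_mul_normalizes eq_one_of_mem isPGroup_of_hasNPC
  isPGroup_of_forall_coprime)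
open scoped commutatorElement

universe u

section

variable {G : Type u} [Group G] [Finite G] {p : ℕ} [hp : Fact p.Prime]

theorem Hyp.comap {H : Subgroup G} {U : Subgroup H} (hU : IsPGroup p U) (h : Hyp p (U.map H.subtype)) :
    Hyp p U := by
  have hJ : (thompsonSubgroupAOf U).map H.subtype = thompsonSubgroupAOf (U.map H.subtype) :=
    (thompsonA_map H.subtype hU (fun x _ hx => Subtype.ext hx)).symm
  intro g hg hgp x hx
  have hg' : (g : G) ∈ Subgroup.normalizer (thompsonSubgroupAOf (U.map H.subtype) : Set G) := by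
    rw [← hJ]; exact Subgroup.le_normalizer_map H.subtype ⟨g, hg, rfl⟩
  exact Subtype.ext (h g hg' (by rw [Subgroup.orderOf_coe]; exact hgp) x (by rw [← hJ]; exact ⟨x, hx, rfl⟩))

theorem normalizer_le_thompsonA {S : Subgroup G} (hS : IsPGroup p S) :
    Subgroup.normalizer (S : Set G) ≤ Subgroup.normalizer (thompsonSubgroupAOf S : Set G) := by
  intro g hg
  rw [Subgroup.mem_normalizer_iff_map_conj_eq] at hg ⊢
  have h := thompsonA_conj S hS g
  rw [show S.map (MulAut.conj g).toMonoidHom = S from hg] at h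
  exact h.symm

theorem thompsonA_le_self (S : Subgroup G) : thompsonSubgroupAOf S ≤ S := Subgroup.map_subtype_le _

/-- An element of order prime to `p` fixing a largest abelian subgroup fixes the group it normalizes. -/
theorem centralize_of_maxAb {P V A : Subgroup G} (hP : IsPGroup p P) (hA : IsMaxAb P A) (hVP : V ≤ P)
    (hAn : A ≤ Subgroup.normalizer (V : Set G)) {g : G} (hgp : (orderOf g).Coprime p)
    (hgV : g ∈ Subgroup.normalizer (V : Set G)) (hgA : g ∈ Subgroup.centralizer (A : Set G)) :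
    g ∈ Subgroup.centralizer (V : Set G) := by
  haveI : Group.IsSolvable (Subgroup.zpowers g) :=
    Group.isSolvable_of_comm fun a b => Std.Commutative.comm a b
  have hcomm : ∀ {U : Subgroup G}, g ∈ Subgroup.centralizer (U : Set G) → ⁅U, Subgroup.zpowers g⁆ = ⊥ :=
    fun {U} h => Subgroup.commutator_eq_bot_iff_le_centralizer.mpr
      (Subgroup.le_centralizer_iff.mp (Subgroup.zpowers_le.mpr h))
  have hself : V ⊓ Subgroup.centralizer (A : Set G) ≤ A := by
    intro x hx
    have hab : ∀ u ∈ A ⊔ Subgroup.zpowers x, ∀ v ∈ A ⊔ Subgroup.zpowers x, u * v = v * u := by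
      refine sup_comm_of hA.comm ?_ ?_
      · rintro _ ⟨i, rfl⟩ _ ⟨j, rfl⟩
        exact (Commute.zpow_zpow_self x i j).eq
      · rintro a ha _ ⟨i, rfl⟩
        exact (Commute.zpow_right (Subgroup.mem_centralizer_iff.mp hx.2 a ha) i).eq
    have := Subgroup.eq_of_le_of_card_ge (le_sup_left : A ≤ A ⊔ Subgroup.zpowers x)
      (hA.max _ (sup_le hA.le (Subgroup.zpowers_le.mpr (hVP hx.1))) hab)
    rw [this]; exact Subgroup.mem_sup_right (Subgroup.mem_zpowers x)
  have hfin : ⁅V, Subgroup.zpowers g⁆ = ⊥ := by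
    refine Coprime.commutator_eq_bot_of_PxQ (p := p) (P := A) (hP.to_le hA.le) ?_ (hcomm hgA) _ V rfl
      (hP.to_le hVP) hAn (Subgroup.zpowers_le.mpr hgV) ?_
    · rwa [Nat.card_zpowers]
    · exact le_bot_iff.mp ((Subgroup.commutator_mono hself le_rfl).trans (hcomm hgA).le)
  exact Subgroup.le_centralizer_iff.mp (Subgroup.commutator_eq_bot_iff_le_centralizer.mp hfin)
    (Subgroup.mem_zpowers g)

end

theorem main_aux {p : ℕ} [hp : Fact p.Prime] (hp5 : 5 ≤ p) :
    ∀ (n : ℕ) {G : Type u} [Group G] [Finite G], Nat.card G ≤ n → ∀ P : Sylow p G,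
      Hyp p (P : Subgroup G) → HasNormalPComplement p G := by
  intro n
  induction n with
  | zero => intro G _ _ h; exact absurd h (by simp [Nat.card_pos.ne'])
  | succ n ih =>
  intro G _ _ hcard P hN
  by_contra hno
  have sub : ∀ H : Subgroup G, H ≠ ⊤ → ∀ T : Subgroup G, T ≤ H → IsPGroup p T →
      (∀ U : Subgroup G, IsPGroup p U → U ≤ H → Nat.card U ≤ Nat.card T) →
      Hyp p T → HasNormalPComplement p H := by
    intro H hH T hTH hT hmax h1
    obtain ⟨S, hS⟩ := (hT.comap_subtype (K := H)).exists_le_sylow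
    have hST : (S : Subgroup H).map H.subtype = T := by
      refine (Subgroup.eq_of_le_of_card_ge ?_ (hmax _ (S.2.map _) (Subgroup.map_subtype_le _))).symm
      intro t ht
      exact ⟨⟨t, hTH ht⟩, hS ht, rfl⟩
    have hlt : Nat.card H < Nat.card G :=
      lt_of_le_of_ne (Subgroup.card_le_card_group H) fun e => hH (Subgroup.eq_top_of_card_eq H e)
    exact ih (by omega) S (Hyp.comap S.2 (by rwa [hST]))
  have maxSylow : ∀ (P' : Sylow p G) (U : Subgroup G), IsPGroup p U →
      Nat.card U ≤ Nat.card (P' : Subgroup G) := by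
    intro P' U hU
    obtain ⟨Q, hQ⟩ := hU.exists_le_sylow
    exact (Subgroup.card_le_of_le hQ).trans (Nat.card_congr (Sylow.equiv Q P').toEquiv).le
  -- some normal `p`-subgroup is nontrivial
  obtain ⟨R₀, hR₀n, hR₀p, hR₀⟩ : ∃ R : Subgroup G, R.Normal ∧ IsPGroup p R ∧ R ≠ ⊥ := by
    by_contra hnone
    push Not at hnone
    obtain ⟨Q₀, hQ₀, hQ₀ne, hQ₀bad⟩ : ∃ Q : Subgroup G, IsPGroup p Q ∧ Q ≠ ⊥ ∧
        ¬ HasNormalPComplement p (Subgroup.normalizer (Q : Set G)) := by
      by_contra hcon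
      push Not at hcon
      exact hno (Transfer.hasNormalPComplement_of_local hcon)
    obtain ⟨⟨Q, T⟩, ⟨hQ, hQne, hbad, hT, hTN⟩, hmax⟩ :=
      (Set.toFinite {QT : Subgroup G × Subgroup G | IsPGroup p QT.1 ∧ QT.1 ≠ ⊥ ∧
        ¬ HasNormalPComplement p (Subgroup.normalizer (QT.1 : Set G)) ∧
        IsPGroup p QT.2 ∧ QT.2 ≤ Subgroup.normalizer (QT.1 : Set G)}).exists_maximalFor
      (fun QT => Nat.card QT.2) _ ⟨(Q₀, ⊥), hQ₀, hQ₀ne, hQ₀bad, IsPGroup.of_bot, bot_le⟩
    have hmax' : ∀ Q' T' : Subgroup G, IsPGroup p Q' → Q' ≠ ⊥ →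
        ¬ HasNormalPComplement p (Subgroup.normalizer (Q' : Set G)) → IsPGroup p T' →
        T' ≤ Subgroup.normalizer (Q' : Set G) → Nat.card T' ≤ Nat.card T := by
      intro Q' T' h1 h2 h3 h4 h5
      rcases le_total (Nat.card T') (Nat.card T) with h | h
      · exact h
      · exact hmax (show (Q', T') ∈ _ from ⟨h1, h2, h3, h4, h5⟩) h
    set H := Subgroup.normalizer (Q : Set G) with hH
    have hHT : H ≠ ⊤ := fun e => hQne (hnone Q (Subgroup.normalizer_eq_top_iff.mp e) hQ)
    have hTmax : ∀ U : Subgroup G, IsPGroup p U → U ≤ H → Nat.card U ≤ Nat.card T :=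
      fun U hU hUH => hmax' Q U hQ hQne hbad hU hUH
    have hQT : Q ≤ T := by
      have h1 : IsPGroup p (Q ⊔ T : Subgroup G) := hQ.to_sup_of_normal_left' hT hTN
      have h2 : (Q ⊔ T : Subgroup G) ≤ H := sup_le Subgroup.le_normalizer hTN
      rw [Subgroup.eq_of_le_of_card_ge (le_sup_right : T ≤ Q ⊔ T) (hTmax _ h1 h2)]
      exact le_sup_left
    obtain ⟨P', hP'⟩ := hT.exists_le_sylow
    refine hbad (sub H hHT T hTN hT hTmax ?_)
    rcases eq_or_lt_of_le hP' with e | hlt
    · simp only at e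
      rw [e]; exact hN.conj P'
    · have hlt' := Transfer.lt_inf_normalizer P'.2 hlt
      refine hyp_of_local hT ?_
      by_contra hb
      have hTne : T ≠ ⊥ := fun e => hQne (le_bot_iff.mp (e ▸ hQT))
      have h1 := hmax' _ ((P' : Subgroup G) ⊓ Subgroup.normalizer (T : Set G))
        (hT.to_le (thompsonA_le_self T)) (thompsonA_ne_bot hTne) hb
        (P'.2.to_le inf_le_left) (inf_le_right.trans (normalizer_le_thompsonA hT))
      exact hlt'.ne (Subgroup.eq_of_le_of_card_ge hlt'.le h1)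
  have hpprime : ∀ K : Subgroup G, K.Normal → (Nat.card K).Coprime p → K = ⊥ := by
    intro K hKn hK
    haveI := hKn
    by_contra hKne
    set f := QuotientGroup.mk' K with hf
    have hfs : Function.Surjective f := QuotientGroup.mk'_surjective K
    have hlt : Nat.card (G ⧸ K) < Nat.card G := by
      rw [Subgroup.card_eq_card_quotient_mul_card_subgroup K]
      exact lt_mul_of_one_lt_right Nat.card_pos ((Subgroup.one_lt_card_iff_ne_bot K).mpr hKne)
    refine hno (Transfer.hasNormalPComplement_of_quotient hK (ih (by omega) (P.mapSurjective hfs) ?_))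
    intro y hy hyp
    rw [Sylow.coe_mapSurjective, thompsonA_map f P.2 (fun x hx h1 => eq_one_of_mem P.2 hx
      (hK.coprime_dvd_left (Subgroup.orderOf_dvd_natCard K ((QuotientGroup.eq_one_iff x).mp h1))))] at hy ⊢
    set J := thompsonSubgroupAOf (P : Subgroup G) with hJ
    obtain ⟨g, rfl⟩ := hfs y
    obtain ⟨k, hk, hkn⟩ := exists_mul_normalizes (P.2.to_le (thompsonA_le_self _)) hK
      (T := J) (g := g) (K := K) (by
        intro t ht
        have h1 := (Subgroup.mem_normalizer_iff.mp hy (f t)).mp (Subgroup.mem_map_of_mem f ht)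
        rw [← map_inv, ← map_mul, ← map_mul] at h1
        have h2 : g * t * g⁻¹ ∈ (J.map f).comap f := h1
        rwa [Subgroup.comap_map_eq, QuotientGroup.ker_mk'] at h2)
    have hfk : f (k * g) = f g := by
      rw [map_mul, show f k = 1 from (QuotientGroup.eq_one_iff k).mpr hk, one_mul]
    obtain ⟨c, hc1, hc2⟩ := exists_pow_coprime (p := p) f (k * g) (by rw [hfk]; exact hyp)
    rintro _ ⟨t, ht, rfl⟩
    rw [← hfk, ← hc1, ← map_mul, ← map_mul, hN _ (pow_mem hkn c) hc2 t ht]
  set R := pCore p G with hR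
  have hRP : R ≤ (P : Subgroup G) := Core.pCore_le_sylow P
  have hRne : R ≠ ⊥ := fun e => hR₀ (le_bot_iff.mp (e ▸ Core.le_pCore hR₀n hR₀p))
  have hnR : ∀ g : G, g ∈ Subgroup.normalizer (R : Set G) := fun g =>
    (Subgroup.normalizer_eq_top_iff.mpr (inferInstance : R.Normal)).ge (Subgroup.mem_top g)
  -- if all largest abelian subgroups lie in `R`, elements of order prime to `p` centralize `R`
  have hallR : (∀ A, IsMaxAb (P : Subgroup G) A → A ≤ R) → ∀ g : G, (orderOf g).Coprime p →
      g ∈ Subgroup.centralizer (R : Set G) := by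
    intro h g hg
    have hJn := thompsonA_normal P h
    obtain ⟨A, hA⟩ := exists_isMaxAb (P : Subgroup G)
    refine centralize_of_maxAb P.2 hA hRP (fun x _ => hnR x) hg (hnR g) fun a ha => ?_
    exact hN g ((Subgroup.normalizer_eq_top_iff.mpr hJn).ge (Subgroup.mem_top g)) hg a (le_thompsonA hA ha)
  have hPR : ¬ (P : Subgroup G) ≤ R := by
    intro h
    refine hno (compl_of_centralized P fun g hg => ?_)
    exact Subgroup.centralizer_le h (hallR (fun A hA => hA.le.trans h) g hg)
  set f := QuotientGroup.mk' R with hf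
  have hfs : Function.Surjective f := QuotientGroup.mk'_surjective R
  have hfR : ∀ {g : G}, f g = 1 ↔ g ∈ R := fun {g} => QuotientGroup.eq_one_iff g
  have hcore : pCore p (G ⧸ R) = ⊥ := Core.pCore_quotient_pCore p G
  set P₁ : Sylow p (G ⧸ R) := P.mapSurjective hfs with hP₁
  have hP₁c : (P₁ : Subgroup (G ⧸ R)) = (P : Subgroup G).map f := Sylow.coe_mapSurjective _ _
  have hP₁ne : (P₁ : Subgroup (G ⧸ R)) ≠ ⊥ := by
    rw [hP₁c, ne_eq, Subgroup.map_eq_bot_iff, QuotientGroup.ker_mk']
    exact hPR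
  have hltR : Nat.card (G ⧸ R) < Nat.card G := by
    rw [Subgroup.card_eq_card_quotient_mul_card_subgroup R]
    exact lt_mul_of_one_lt_right Nat.card_pos ((Subgroup.one_lt_card_iff_ne_bot R).mpr hRne)
  have subP : ∀ H : Subgroup G, H ≠ ⊤ → (P : Subgroup G) ≤ H → HasNormalPComplement p H :=
    fun H hH hPH => sub H hH P hPH P.2 (fun U hU _ => maxSylow P U hU) hN
  have quotNPC : ∀ L : Subgroup (G ⧸ R), L ≠ ⊤ → (P₁ : Subgroup (G ⧸ R)) ≤ L →
      HasNormalPComplement p L := by
    intro L hL hPL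
    refine npc_map f (Subgroup.map_comap_eq_self_of_surjective hfs L).ge (subP _ ?_ ?_)
    · intro e
      exact hL (by rw [← Subgroup.map_comap_eq_self_of_surjective hfs L, e,
        Subgroup.map_top_of_surjective _ hfs])
    · exact Subgroup.map_le_iff_le_comap.mp (hP₁c ▸ hPL)
  have hQ : HasNormalPComplement p (G ⧸ R) := by
    refine ih (by omega) P₁ (hyp_of_local P₁.2 (quotNPC _ ?_ ?_))
    · intro e
      have := Core.le_pCore (Subgroup.normalizer_eq_top_iff.mp e) (P₁.2.to_le (thompsonA_le_self _))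
      rw [hcore, le_bot_iff] at this
      exact thompsonA_ne_bot hP₁ne this
    · exact Subgroup.le_normalizer.trans (normalizer_le_thompsonA P₁.2)
  set N := pResidual p (G ⧸ R) with hNdef
  haveI : N.Normal := Transfer.pResidual_normal
  have hNc : (Nat.card N).Coprime p := Transfer.hasNormalPComplement_iff_coprime_pResidual.mp hQ
  have hNP : (P₁ : Subgroup (G ⧸ R)) ⊓ N = ⊥ := (Transfer.inf_pResidual_eq_bot_iff P₁).mpr hQ
  have hsup : (P₁ : Subgroup (G ⧸ R)) ⊔ N = ⊤ := Transfer.sylow_sup_pResidual P₁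
  have inR : ∀ U : Subgroup G, IsPGroup p U → U ≤ N.comap f → U ≤ R := by
    intro U hU hle u hu
    rw [← hfR]
    exact eq_one_of_mem (hU.map f) (Subgroup.mem_map_of_mem f hu)
      (hNc.coprime_dvd_left (Subgroup.orderOf_dvd_natCard N (hle hu)))
  haveI hCRn : (Subgroup.centralizer (R : Set G)).Normal := inferInstance
  have hCK : N.comap f ⊓ Subgroup.centralizer (R : Set G) ≤ R := by
    set C := N.comap f ⊓ Subgroup.centralizer (R : Set G) with hC
    haveI hCn : C.Normal := Subgroup.normal_inf_normal _ _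
    have hnpc : HasNormalPComplement p C := by
      obtain ⟨S⟩ : Nonempty (Sylow p C) := inferInstance
      refine Transfer.hasNormalPComplement_of_frobenius S fun Q hQS _ g _ _ => ?_
      rw [Subgroup.mem_centralizer_iff]
      intro q hq
      have hqR : (q : G) ∈ R := inR _ (S.2.map C.subtype)
        ((Subgroup.map_subtype_le _).trans inf_le_left) ⟨q, hQS hq, rfl⟩
      exact Subtype.ext (Subgroup.mem_centralizer_iff.mp g.2.2 (q : G) hqR)
    haveI : (pResidual p C).Characteristic := inferInstance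
    have hL : (pResidual p C).map C.subtype = ⊥ := by
      refine hpprime _ (Core.normal_map_subtype_of_characteristic _) ?_
      rw [Subgroup.card_map_of_injective C.subtype_injective]
      exact Transfer.hasNormalPComplement_iff_coprime_pResidual.mp hnpc
    rw [Subgroup.map_eq_bot_iff_of_injective _ C.subtype_injective] at hL
    exact inR C (isPGroup_of_hasNPC hnpc hL) inf_le_left
  have hCR : Subgroup.centralizer (R : Set G) ≤ R := by
    have hX : ((Subgroup.centralizer (R : Set G)).map f).Normal := hCRn.map f hfs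
    have hXp : IsPGroup p ((Subgroup.centralizer (R : Set G)).map f) := by
      refine isPGroup_of_forall_coprime fun c hc ho => ?_
      obtain ⟨x, hx, rfl⟩ := hc
      exact hfR.mpr (hCK ⟨Transfer.mem_pResidual_of_coprime ho, hx⟩)
    have := Core.le_pCore hX hXp
    rwa [hcore, le_bot_iff, Subgroup.map_eq_bot_iff, QuotientGroup.ker_mk'] at this
  have hmaxP : ∀ H : Subgroup G, H ≠ ⊤ → (P : Subgroup G) ≤ H → H = (P : Subgroup G) := by
    intro H hH hPH
    have hnpc := subP H hH hPH
    refine P.3 (isPGroup_of_hasNPC hnpc ?_) hPH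
    rw [eq_bot_iff]
    intro l hl
    rw [Subgroup.mem_bot]
    have hlo := (Transfer.mem_pResidual_iff hnpc).mp hl
    have hlc : (l : G) ∈ Subgroup.centralizer (R : Set G) := by
      have h1 := mem_centralizer_of_hasNormalPComplement hnpc (Q := R.subgroupOf H)
        ((P.2.to_le hRP).comap_subtype) (g := l) ?_ hlo
      · intro r hr
        exact congrArg Subtype.val (h1 ⟨r, hPH (hRP hr)⟩ hr)
      · rw [Subgroup.normalizer_eq_top_iff.mpr inferInstance]; trivial
    exact Subtype.ext (eq_one_of_mem (Core.isPGroup_pCore p G) (hCR hlc)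
      (by rw [Subgroup.orderOf_coe]; exact hlo))
  have hmaxP₁ : ∀ L : Subgroup (G ⧸ R), L ≠ ⊤ → (P₁ : Subgroup (G ⧸ R)) ≤ L →
      L ≤ (P₁ : Subgroup (G ⧸ R)) := by
    intro L hL hPL
    have h1 := hmaxP (L.comap f) (fun e => hL (by
        rw [← Subgroup.map_comap_eq_self_of_surjective hfs L, e, Subgroup.map_top_of_surjective _ hfs]))
      (Subgroup.map_le_iff_le_comap.mp (hP₁c ▸ hPL))
    rw [← Subgroup.map_comap_eq_self_of_surjective hfs L, h1, hP₁c]
  have hNne : N ≠ ⊥ := by
    intro e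
    rw [e, sup_bot_eq] at hsup
    have hn : (P₁ : Subgroup (G ⧸ R)).Normal := by rw [hsup]; infer_instance
    have := Core.le_pCore hn P₁.2
    rw [hcore, le_bot_iff] at this
    exact hP₁ne this
  have inv_trivial : ∀ S : Subgroup (G ⧸ R), S ≤ N →
      (P₁ : Subgroup (G ⧸ R)) ≤ Subgroup.normalizer (S : Set (G ⧸ R)) → S = ⊥ ∨ S = N := by
    intro S hS hnorm
    by_cases htop : (P₁ : Subgroup (G ⧸ R)) ⊔ S = ⊤
    · right
      refine le_antisymm hS fun x hx => ?_
      obtain ⟨s, hs, t, ht, rfl⟩ := Coprime.exists_mul_of_mem_sup hnorm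
        (sup_comm (P₁ : Subgroup (G ⧸ R)) S ▸ htop.symm ▸ Subgroup.mem_top x)
      have ht1 : t ∈ (P₁ : Subgroup (G ⧸ R)) ⊓ N :=
        ⟨ht, by simpa using N.mul_mem (N.inv_mem (hS hs)) hx⟩
      rw [hNP, Subgroup.mem_bot] at ht1
      simpa [ht1] using hs
    · left
      have := hmaxP₁ _ htop le_sup_left
      rw [← le_bot_iff, ← hNP]
      exact le_inf (le_sup_right.trans this) hS
  have hcopPN : (Nat.card (P₁ : Subgroup (G ⧸ R))).Coprime (Nat.card N) := by
    obtain ⟨k, hk⟩ := IsPGroup.iff_card.mp P₁.2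
    rw [hk]; exact hNc.symm.pow_left k
  obtain ⟨q, hq, hqN⟩ := Nat.exists_prime_and_dvd ((Subgroup.one_lt_card_iff_ne_bot N).mpr hNne).ne'
  haveI : Fact q.Prime := ⟨hq⟩
  haveI := Coprime.isSolvable_of_isPGroup P₁.2
  obtain ⟨S, hSN, hSq, hSi, hSP⟩ := Coprime.exists_invariant_sylow
    (le_top.trans_eq (Subgroup.normalizer_eq_top N).symm) hcopPN q
  have hSeq : S = N := (inv_trivial S hSN hSP).resolve_left (by
    rintro rfl
    rw [Subgroup.relIndex_bot_left] at hSi
    exact hSi hqN)
  haveI hNnil : Group.IsNilpotent N := by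
    rw [← hSeq]; exact hSq.isNilpotent
  have hNab : ⁅N, N⁆ = ⊥ := by
    refine (inv_trivial ⁅N, N⁆ (Subgroup.commutator_le_right N N)
      (le_top.trans_eq (Subgroup.normalizer_eq_top _).symm)).resolve_right ?_
    intro e
    exact hNne (Transfer.eq_bot_of_le_commutator le_rfl e.ge)
  haveI hNcomm : IsMulCommutative N :=
    Subgroup.le_centralizer_iff_isMulCommutative.mp (Subgroup.commutator_eq_bot_iff_le_centralizer.mp hNab)
  -- a largest abelian subgroup outside `R`
  obtain ⟨A, hA, hAR⟩ : ∃ A, IsMaxAb (P : Subgroup G) A ∧ ¬ A ≤ R := by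
    by_contra hcon
    push Not at hcon
    apply hNne
    rw [eq_bot_iff]
    intro x hx
    obtain ⟨g, rfl⟩ := hfs x
    obtain ⟨c, hc1, hc2⟩ := exists_pow_coprime (p := p) f g
      (hNc.coprime_dvd_left (Subgroup.orderOf_dvd_natCard N hx))
    rw [Subgroup.mem_bot, ← hc1]
    exact hfR.mpr (hCR (hallR hcon _ hc2))
  set Ab := A.map f with hAb
  have hAbP : Ab ≤ (P₁ : Subgroup (G ⧸ R)) := hP₁c ▸ Subgroup.map_mono hA.le
  have hAbN : Ab ≤ Subgroup.normalizer (N : Set (G ⧸ R)) := le_top.trans_eq (Subgroup.normalizer_eq_top N).symm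
  have hcopAN : (Nat.card Ab).Coprime (Nat.card N) :=
    hcopPN.coprime_dvd_left (Subgroup.card_dvd_of_le hAbP)
  set M := ⁅N, Ab⁆ with hM
  have hMne : M ≠ ⊥ := by
    intro e
    have hle : Ab ≤ (P₁ : Subgroup (G ⧸ R)) ⊓ Subgroup.centralizer (N : Set (G ⧸ R)) :=
      le_inf hAbP (Subgroup.le_centralizer_iff.mp (Subgroup.commutator_eq_bot_iff_le_centralizer.mp e))
    set C₁ := (P₁ : Subgroup (G ⧸ R)) ⊓ Subgroup.centralizer (N : Set (G ⧸ R))
    have hC₁ : C₁.Normal := by
      rw [← Subgroup.normalizer_eq_top_iff, eq_top_iff, ← hsup]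
      refine sup_le ((le_inf Subgroup.le_normalizer ?_).trans
        Subgroup.inf_normalizer_le_normalizer_inf) fun x hx => ?_
      · rw [Subgroup.normalizer_eq_top_iff.mpr inferInstance]; exact le_top
      · rw [Subgroup.mem_normalizer_iff]
        intro c
        constructor
        · intro hc
          rwa [Subgroup.mem_centralizer_iff.mp hc.2 x hx, mul_inv_cancel_right]
        · intro hc
          have h1 := Subgroup.mem_centralizer_iff.mp hc.2 x hx
          rw [show x * c * x⁻¹ * x = x * c by group] at h1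
          rwa [← mul_left_cancel h1] 
    have h2 := Core.le_pCore hC₁ (P₁.2.to_le inf_le_left)
    rw [hcore, le_bot_iff] at h2
    rw [h2, le_bot_iff, hAb, Subgroup.map_eq_bot_iff, QuotientGroup.ker_mk'] at hle
    exact hAR hle
  obtain ⟨X, ⟨hXM, hXne, hXA⟩, hXmin⟩ := (Set.toFinite {Y : Subgroup (G ⧸ R) | Y ≤ M ∧ Y ≠ ⊥ ∧
    Ab ≤ Subgroup.normalizer (Y : Set (G ⧸ R))}).exists_minimal
      ⟨M, le_rfl, hMne, Subgroup.normalizer_commutator_ge_right N Ab⟩
  have hXN : X ≤ N := hXM.trans (Coprime.commutator_le_of_le_normalizer hAbN)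
  refine endgame_false hp5 P.2 hRP hA hCR X ?_ ?_ hXne hXA ?_ ?_
  · exact fun x hx y hy => congrArg Subtype.val (mul_comm' (⟨x, hXN hx⟩ : N) ⟨y, hXN hy⟩)
  · exact hNc.coprime_dvd_left (Subgroup.card_dvd_of_le hXN)
  · intro Y hY hYA
    by_cases hY0 : Y = ⊥
    · exact Or.inl hY0
    · exact Or.inr (le_antisymm hY (hXmin ⟨hY.trans hXM, hY0, hYA⟩ hY))
  · by_contra hcon
    push Not at hcon
    refine hXne (le_bot_iff.mp ?_)
    rw [← Coprime.commutator_inf_centralizer_eq_bot hAbN hNcomm hcopAN]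
    exact le_inf hXM fun x hx => Subgroup.mem_centralizer_iff.mpr fun d hd => hcon d hd x hx

end Cfsg.Agent.Transfer.ThompsonPC
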