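import Mathlib.RingTheory.Nilpotent.Basic
import Mathlib.Algebra.MonoidAlgebra.Basic
import Mathlib.Algebra.CharP.Lemmas
import Mathlib.Algebra.Polynomial.AlgebraMap
import Mathlib.Algebra.Polynomial.Div
import Mathlib.LinearAlgebra.LinearIndependent.Basic
import Mathlib.RingTheory.Ideal.Maximal
import Mathlib.RingTheory.Jacobson.Ideal
import Mathlib.Algebra.CharP.Algebra
import Mathlib.Algebra.Algebra.ZMod
import Mathlib.Algebra.Field.ZMod
import Mathlib.Tactic.LinearCombination
import Mathlib.Tactic.NormNum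
import Mathlib.RingTheory.Ideal.Quotient.Basic
import Mathlib.GroupTheory.OrderOfElement

/-! Polynomial and character computations for the p-complement criterion. -/

set_option autoImplicit false

namespace Cfsg.Agent.Transfer.ThompsonPC

open Polynomial

variable {p : ℕ} [hp : Fact p.Prime] {V : Type*} [AddCommGroup V] [Module (ZMod p) V]

/-- The relation forced by the replacement count kills the cube of `1 - a`. -/
theorem cube_eq_zero (hp5 : 5 ≤ p) (a : Module.End (ZMod p) V) {e : ℕ} (ha : a ^ p ^ e = 1) (i : ℕ) (v : V)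
    (h : ((1 - a) ^ 3 : Module.End (ZMod p) V) v = ((1 - a) * (1 - a ^ i) : Module.End (ZMod p) V) v) :
    ((1 - a) ^ 3 : Module.End (ZMod p) V) v = 0 := by
  haveI : CharP (ZMod p)[X] p := charP_of_injective_algebraMap (C_injective (R := ZMod p)) p
  set φ : (ZMod p)[X] →ₐ[ZMod p] Module.End (ZMod p) V := aeval a with hφ
  set w := 1 - a with hw
  have hφw : φ (1 - X) = w := by rw [map_sub, map_one, hφ, aeval_X]
  have hnil : IsNilpotent w := ⟨p ^ e, by
    rw [← hφw, ← map_pow, sub_pow_char_pow, one_pow, map_sub, map_one, map_pow, hφ, aeval_X, ha, sub_self]⟩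
  have hnilmul : ∀ q : (ZMod p)[X], IsNilpotent (φ ((1 - X) * q)) := fun q => by
    rw [map_mul, hφw]
    refine (Commute.isNilpotent_mul_right ?_ hnil)
    rw [← hφw]; exact (Commute.all _ _).map φ
  by_cases hpi : p ∣ i
  · obtain ⟨i', rfl⟩ := hpi
    obtain ⟨d, hd⟩ := sub_dvd_pow_sub_pow (1 : (ZMod p)[X]) (X ^ p) i'
    have hd' : (1 : (ZMod p)[X]) - X ^ (p * i') = (1 - X) ^ p * d := by
      rw [sub_pow_char, one_pow, ← hd, one_pow, ← pow_mul]
    have hu : IsUnit (φ (1 - (1 - X) * ((1 - X) ^ (p - 3) * d))) := by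
      rw [map_sub, map_one]
      exact (hnilmul _).isUnit_one_sub
    have hmul : φ (1 - (1 - X) * ((1 - X) ^ (p - 3) * d)) * w ^ 3 =
        w ^ 3 - (1 - a) * (1 - a ^ (p * i')) := by
      have ha' : φ ((1 - X) * (1 - X ^ (p * i'))) = (1 - a) * (1 - a ^ (p * i')) := by
        simp [hφ]
      rw [← ha', ← hφw, ← map_pow, ← map_mul, ← map_sub, hd']
      congr 1
      obtain ⟨q, rfl⟩ : ∃ q, p = q + 3 := ⟨p - 3, by omega⟩
      rw [Nat.add_sub_cancel]
      ring
    obtain ⟨u, hu⟩ := hu
    have h0 : (u : Module.End (ZMod p) V) ((w ^ 3) v) = 0 := by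
      rw [hu, ← Module.End.mul_apply, hmul, LinearMap.sub_apply, h, sub_self]
    have h2 := congrArg (fun t => (↑u⁻¹ : Module.End (ZMod p) V) t) h0
    simpa [← Module.End.mul_apply] using h2
  · set g : (ZMod p)[X] := ∑ t ∈ Finset.range i, X ^ t with hg
    obtain ⟨q, hq⟩ := X_sub_C_dvd_sub_C_eval (p := g) (a := 1)
    have hev : g.eval 1 = (i : ZMod p) := by simp [hg, eval_finsetSum]
    rw [hev] at hq
    have hunit : IsUnit (φ ((1 - X) - g)) := by
      have e1 : ((1 : (ZMod p)[X]) - X) - g = (1 - X) * (1 + q) + - C (i : ZMod p) := by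
        rw [show g = (X - C 1) * q + C (i : ZMod p) by rw [← hq]; ring, map_one]; ring
      rw [e1, map_add]
      refine (hnilmul _).isUnit_add_right_of_commute ?_ ((Commute.all _ _).map φ)
      refine IsUnit.map φ ?_
      rw [← map_neg, isUnit_C]
      exact (isUnit_iff_ne_zero (a := -(i : ZMod p))).mpr
        (neg_ne_zero.mpr fun h => hpi ((ZMod.natCast_eq_zero_iff i p).mp h))
    have hmul : φ ((1 - X) - g) * w ^ 2 = w ^ 3 - (1 - a) * (1 - a ^ i) := by
      have ha' : φ ((1 - X) * (1 - X ^ i)) = (1 - a) * (1 - a ^ i) := by simp [hφ]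
      rw [← ha', ← hφw, ← map_pow, ← map_mul, ← map_pow, ← map_sub]
      congr 1
      have := geom_sum_mul (X : (ZMod p)[X]) i
      rw [← hg] at this
      linear_combination (1 - X) * this
    obtain ⟨u, hu⟩ := hunit
    have h0 : (u : Module.End (ZMod p) V) ((w ^ 2) v) = 0 := by
      rw [hu, ← Module.End.mul_apply, hmul, LinearMap.sub_apply, h, sub_self]
    have h2 := congrArg (fun t => (↑u⁻¹ : Module.End (ZMod p) V) t) h0
    have h3 : (w ^ 2) v = 0 := by simpa [← Module.End.mul_apply] using h2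
    rw [pow_succ', Module.End.mul_apply, h3, map_zero]

/-- Some symmetric vector survives the cube of `1 - a`. -/
theorem exists_symm_ne_zero (hp5 : 5 ≤ p) {K : Type*} [Group K] [Finite K] (hcomm : ∀ x y : K, x * y = y * x)
    (hK : (Nat.card K).Coprime p) (σ : K →* Module.End (ZMod p) V) (τ : K →* K)
    (hτ : ∀ i, 1 ≤ i → i ≤ 6 → i ≠ 5 → ∀ k : K, τ^[i] k = k → k = 1) (w : V) (hw : ∃ k, σ k w ≠ w) :
    ∃ k : K, (σ k + σ k⁻¹) w - 3 • (σ (τ k) + σ (τ k)⁻¹) w + 3 • (σ (τ^[2] k) + σ (τ^[2] k)⁻¹) w
      - (σ (τ^[3] k) + σ (τ^[3] k)⁻¹) w ≠ 0 := by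
  letI : CommGroup K := { ‹Group K› with mul_comm := hcomm }
  by_contra hcon
  push Not at hcon
  classical
  set F := MonoidAlgebra.lift (ZMod p) (Module.End (ZMod p) V) K σ with hF
  let I : Ideal (MonoidAlgebra (ZMod p) K) :=
    { carrier := {f | F f w = 0}
      add_mem' := fun {f g} (hf : F f w = 0) (hg : F g w = 0) => by
        show F (f + g) w = 0
        rw [map_add, LinearMap.add_apply, hf, hg, add_zero]
      zero_mem' := by show F 0 w = 0; rw [map_zero]; rfl
      smul_mem' := fun g f (hf : F f w = 0) => by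
        show F (g * f) w = 0
        rw [map_mul, Module.End.mul_apply, hf, map_zero] }
  have hIk : ∀ k : K, MonoidAlgebra.of (ZMod p) K k - 1 ∈ I → σ k w = w := fun k hk => by
    have : F (MonoidAlgebra.of (ZMod p) K k - 1) w = 0 := hk
    rw [map_sub, map_one, hF, MonoidAlgebra.lift_of, LinearMap.sub_apply, Module.End.one_apply,
      sub_eq_zero] at this
    exact this
  obtain ⟨k₀, hk₀⟩ := hw
  -- a field quotient with a nontrivial character
  obtain ⟨J, hJ, hIJ, k₁, hk₁⟩ : ∃ J : Ideal (MonoidAlgebra (ZMod p) K), J.IsMaximal ∧ I ≤ J ∧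
      ∃ k : K, MonoidAlgebra.of (ZMod p) K k - 1 ∉ J := by
    by_contra hall
    push Not at hall
    have hrad : MonoidAlgebra.of (ZMod p) K k₀ - 1 ∈ (Ideal.jacobson I) := by
      rw [Ideal.jacobson, Ideal.mem_sInf]
      exact fun {J} hJ => hall J hJ.2 hJ.1 k₀
    set x := MonoidAlgebra.of (ZMod p) K k₀ with hx
    set n := orderOf k₀ with hn
    have hxn : x ^ n = 1 := by rw [hx, ← map_pow, hn, pow_orderOf_eq_one, map_one]
    set g : MonoidAlgebra (ZMod p) K := ∑ t ∈ Finset.range n, x ^ t with hg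
    have hgI : g * (x - 1) ∈ I := by
      rw [hg, geom_sum_mul, hxn, sub_self]; exact I.zero_mem
    -- `g` is a unit modulo `I`
    have hgn : g - (n : MonoidAlgebra (ZMod p) K) ∈ (Ideal.jacobson I) := by
      have e : g - (n : MonoidAlgebra (ZMod p) K) = ∑ t ∈ Finset.range n, (x ^ t - 1) := by
        rw [Finset.sum_sub_distrib, ← hg, Finset.sum_const, Finset.card_range, nsmul_one]
      rw [e]
      refine sum_mem fun t _ => ?_
      obtain ⟨q, hq⟩ := sub_one_dvd_pow_sub_one x t
      rw [hq]; exact Ideal.mul_mem_right _ _ hrad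
    have hnu : IsUnit (n : MonoidAlgebra (ZMod p) K) := by
      have : IsUnit (n : ZMod p) := (ZMod.unitOfCoprime n
        (Nat.Coprime.coprime_dvd_left (orderOf_dvd_natCard k₀) hK)).isUnit
      simpa using this.map (algebraMap (ZMod p) (MonoidAlgebra (ZMod p) K))
    obtain ⟨u, hu⟩ := hnu
    have hg1 : g * ↑u⁻¹ - 1 ∈ (Ideal.jacobson I) := by
      have := Ideal.mul_mem_right (↑u⁻¹ : MonoidAlgebra (ZMod p) K) _ hgn
      rwa [sub_mul, ← hu, Units.mul_inv] at this
    obtain ⟨s, hs⟩ := Ideal.exists_mul_sub_mem_of_sub_one_mem_jacobson (I := I) _ hg1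
    refine hk₀ (hIk k₀ ?_)
    have h1 := Ideal.mul_mem_left I (s * ↑u⁻¹) hgI
    have h2 := Ideal.mul_mem_right (x - 1) I hs
    have e : x - 1 = s * ↑u⁻¹ * (g * (x - 1)) - (s * (g * ↑u⁻¹) - 1) * (x - 1) := by ring
    rw [e]; exact I.sub_mem h1 h2
  haveI := hJ
  letI : Field (MonoidAlgebra (ZMod p) K ⧸ J) := Ideal.Quotient.field J
  set L := MonoidAlgebra (ZMod p) K ⧸ J
  set ψ := Ideal.Quotient.mk J
  set χ : K →* L := (ψ : MonoidAlgebra (ZMod p) K →* L).comp (MonoidAlgebra.of (ZMod p) K) with hχ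
  haveI : CharP L p := charP_of_injective_algebraMap (algebraMap (ZMod p) L).injective p
  let T : ℕ → (K →* K) := fun i => Nat.rec (MonoidHom.id K) (fun _ f => τ.comp f) i
  have hT : ∀ i k, T i k = τ^[i] k := by
    intro i
    induction i with
    | zero => intro k; rfl
    | succ i ih => intro k; rw [Function.iterate_succ_apply', ← ih]; rfl
  let c : ℕ → L := fun i => if i = 0 then 1 else if i = 1 then -3 else if i = 2 then 3 else -1
  -- the linear relation between the characters
  have hrel : ∀ k : K, ∑ i ∈ Finset.range 4, c i * (χ (T i k) + χ (T i k⁻¹)) = 0 := by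
    intro k
    set o := MonoidAlgebra.of (ZMod p) K with ho
    set f := (o k + o k⁻¹) - 3 • (o (τ k) + o (τ k)⁻¹) + 3 • (o (τ^[2] k) + o (τ^[2] k)⁻¹)
      - (o (τ^[3] k) + o (τ^[3] k)⁻¹) with hf
    have hfI : f ∈ I := by
      show F f w = 0
      simp only [hf, ho, hF, map_sub, map_add, map_nsmul, MonoidAlgebra.lift_of, LinearMap.sub_apply,
        LinearMap.add_apply, LinearMap.smul_apply]
      simpa using hcon k
    have := Ideal.Quotient.eq_zero_iff_mem.mpr (hIJ hfI)
    simp only [hf, map_sub, map_add, map_nsmul] at this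
    simp only [Finset.sum_range_succ, Finset.sum_range_zero, c, hT, hχ, MonoidHom.comp_apply,
      MonoidHom.coe_coe, map_inv, Function.iterate_zero, id_eq, Function.iterate_one]
    simp only [← map_inv, Function.iterate_succ_apply', Function.iterate_zero, id_eq] at this ⊢
    simp only [nsmul_eq_mul, Nat.cast_ofNat, map_inv τ] at this ⊢
    norm_num
    linear_combination this
  have hne : χ ≠ 1 := fun h => hk₁ (by
    have : χ k₁ = 1 := by rw [h]; rfl
    refine Ideal.Quotient.eq_zero_iff_mem.mp ?_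
    rw [map_sub, map_one]
    exact sub_eq_zero.mpr this)
  -- iterating `τ` moves the character
  have hinv : ∀ f : K →* L, ∀ k : K, f k⁻¹ * f k = 1 := fun f k => by rw [← map_mul, inv_mul_cancel, map_one]
  have hmove : ∀ i, 1 ≤ i → i ≤ 6 → i ≠ 5 → χ.comp (T i) ≠ χ := by
    intro i h1 h2 h5 he
    apply hne
    let δ : K →* K :=
      { toFun := fun k => T i k * k⁻¹
        map_one' := by simp
        map_mul' := fun a b => by simp only [map_mul, mul_inv]; rw [mul_mul_mul_comm] }
    have hinj : Function.Injective δ := by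
      rw [injective_iff_map_eq_one]
      intro k hk
      refine hτ i h1 h2 h5 k ?_
      rw [← hT]
      exact mul_inv_eq_one.mp hk
    ext k
    obtain ⟨b, rfl⟩ := Finite.surjective_of_injective hinj k
    show χ (T i b * b⁻¹) = 1
    rw [map_mul, show χ (T i b) = χ b from DFunLike.congr_fun he b, ← map_mul, mul_inv_cancel, map_one]
  let χi : ℕ → Bool → (K →* L) := fun i s =>
    if s then χ.comp (T i) else (χ.comp (T i)).comp invMonoidHom
  have hsep : ∀ i, 1 ≤ i → i ≤ 3 → ∀ s, χi i s ≠ χ := by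
    intro i h1 h2 s he
    cases s with
    | true => exact hmove i h1 (by omega) (by omega) (by simpa [χi] using he)
    | false =>
      refine hmove (i + i) (by omega) (by omega) (by omega) (MonoidHom.ext fun k => ?_)
      have e : ∀ k, χ (T i k⁻¹) = χ k := fun k => by simpa [χi] using DFunLike.congr_fun he k
      have e2 : T (i + i) k = T i (T i k) := by rw [hT, hT, hT, Function.iterate_add_apply]
      rw [MonoidHom.comp_apply, e2]
      calc χ (T i (T i k)) = χ (T i (T i k⁻¹)⁻¹) := by rw [map_inv (T i) k, inv_inv]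
        _ = χ (T i k⁻¹) := e _
        _ = χ k := e k
  let f : (K →* L) →₀ L := ∑ i ∈ Finset.range 4,
    (Finsupp.single (χi i true) (c i) + Finsupp.single (χi i false) (c i))
  have hf0 : Finsupp.linearCombination L (fun f : K →* L => (f : K → L)) f = 0 := by
    funext k
    simp only [f, map_sum, map_add, Finsupp.linearCombination_single, Finset.sum_apply, Pi.add_apply,
      Pi.smul_apply, smul_eq_mul, Pi.zero_apply]
    rw [← hrel k]
    refine Finset.sum_congr rfl fun i _ => ?_
    simp [χi, mul_add]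
  have hfz := linearIndependent_iff.mp (linearIndependent_monoidHom K L) f hf0
  have h0 := DFunLike.congr_fun hfz χ
  simp only [f, Finsupp.coe_finsetSum, Finset.sum_apply, Finsupp.add_apply, Finsupp.zero_apply,
    Finset.sum_range_succ, Finset.sum_range_zero, zero_add] at h0
  rw [Finsupp.single_eq_of_ne (hsep 1 le_rfl (by norm_num) true).symm,
    Finsupp.single_eq_of_ne (hsep 1 le_rfl (by norm_num) false).symm,
    Finsupp.single_eq_of_ne (hsep 2 (by norm_num) (by norm_num) true).symm,
    Finsupp.single_eq_of_ne (hsep 2 (by norm_num) (by norm_num) false).symm,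
    Finsupp.single_eq_of_ne (hsep 3 (by norm_num) (by norm_num) true).symm,
    Finsupp.single_eq_of_ne (hsep 3 (by norm_num) (by norm_num) false).symm] at h0
  have hχ0 : χi 0 true = χ := rfl
  rw [hχ0, Finsupp.single_eq_same] at h0
  have h2 : (2 : L) ≠ 0 := by
    intro h
    have := (CharP.cast_eq_zero_iff L p 2).mp (by exact_mod_cast h)
    have := Nat.le_of_dvd (by norm_num) this
    omega
  by_cases h : χi 0 false = χ
  · rw [h, Finsupp.single_eq_same] at h0
    simp [c] at h0
    exact h2 (by linear_combination h0)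
  · rw [Finsupp.single_eq_of_ne (Ne.symm h)] at h0
    simp [c] at h0

end Cfsg.Agent.Transfer.ThompsonPC
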