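import Mathlib.Algebra.Module.ZMod
import Mathlib.GroupTheory.QuotientGroup.Basic
import Mathlib.GroupTheory.Commutator.Basic
import Mathlib.Algebra.Module.LinearMap.End

/-! An elementary abelian normal section as a module over `ZMod p`. -/

set_option autoImplicit false
set_option linter.style.haveILetI false

namespace Cfsg.Agent.Transfer.ThompsonPC

open Subgroup
open scoped commutatorElement

universe u

theorem exists_linear {G : Type*} [Group G] {p : ℕ} {V : Type*} [AddCommGroup V] (h : ∀ x : V, p • x = 0)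
    (ρ₀ : G →* AddMonoid.End V) :
    ∃ (_ : Module (ZMod p) V) (ρ : G →* Module.End (ZMod p) V), ∀ g x, ρ g x = ρ₀ g x := by
  obtain ⟨M⟩ : Nonempty (Module (ZMod p) V) := ⟨AddCommGroup.zmodModule h⟩
  refine ⟨M, { toFun := fun g => (ρ₀ g : V →+ V).toZModLinearMap p, map_one' := ?_, map_mul' := ?_ }, ?_⟩
  · refine LinearMap.ext fun x => ?_
    show (ρ₀ 1) x = x
    rw [map_one]; rfl
  · intro g g'
    refine LinearMap.ext fun x => ?_
    show (ρ₀ (g * g')) x = ρ₀ g (ρ₀ g' x)
    rw [map_mul]; rfl
  · intro g x; rfl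

/-- The conjugation action of `G` on `W / U`, as linear maps. -/
theorem exists_module {G : Type u} [Group G] {p : ℕ} (W U : Subgroup G) [W.Normal] [U.Normal]
    (hab : ∀ w ∈ W, ∀ v ∈ W, ⁅w, v⁆ ∈ U) (hpow : ∀ w ∈ W, w ^ p ∈ U) :
    ∃ (V : Type u) (_ : AddCommGroup V) (_ : Module (ZMod p) V) (ι : W → V)
      (ρ : G →* Module.End (ZMod p) V), (∀ u v : W, ι (u * v) = ι u + ι v) ∧
      (∀ u : W, ι u = 0 ↔ (u : G) ∈ U) ∧ Function.Surjective ι ∧
      ∀ (g : G) (u : W), ρ g (ι u) = ι ⟨g * u * g⁻¹, (inferInstance : W.Normal).conj_mem u u.2 g⟩ := by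
  haveI : (U.subgroupOf W).Normal := inferInstance
  have hcomm : ∀ x y : W ⧸ U.subgroupOf W, x * y = y * x := fun x y => by
    induction x using QuotientGroup.induction_on with
    | _ x =>
    induction y using QuotientGroup.induction_on with
    | _ y =>
    rw [← commutatorElement_eq_one_iff_mul_comm, ← QuotientGroup.mk'_apply, ← QuotientGroup.mk'_apply,
      ← map_commutatorElement, QuotientGroup.mk'_apply, QuotientGroup.eq_one_iff, Subgroup.mem_subgroupOf]
    exact hab x x.2 y y.2
  letI : CommGroup (W ⧸ U.subgroupOf W) :=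
    { (inferInstance : Group (W ⧸ U.subgroupOf W)) with mul_comm := hcomm }
  have hexp : ∀ x : Additive (W ⧸ U.subgroupOf W), p • x = 0 := fun x => by
    apply Additive.toMul.injective
    rw [toMul_nsmul, toMul_zero]
    obtain ⟨w, hw⟩ := QuotientGroup.mk'_surjective (U.subgroupOf W) x.toMul
    rw [← hw, ← map_pow, QuotientGroup.mk'_apply, QuotientGroup.eq_one_iff, Subgroup.mem_subgroupOf]
    exact hpow w w.2
  let c : G → (W ⧸ U.subgroupOf W →* W ⧸ U.subgroupOf W) := fun g =>
    QuotientGroup.map _ _ (MulAut.conjNormal g : MulAut W).toMonoidHom fun w hw => by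
      show g * (w : G) * g⁻¹ ∈ U
      exact (inferInstance : U.Normal).conj_mem _ hw g
  let ρ₀ : G →* AddMonoid.End (Additive (W ⧸ U.subgroupOf W)) :=
    { toFun := fun g => MonoidHom.toAdditive (c g)
      map_one' := by
        ext x
        obtain ⟨w, hw⟩ := QuotientGroup.mk'_surjective (U.subgroupOf W) x.toMul
        obtain rfl : x = Additive.ofMul (QuotientGroup.mk w) := Additive.toMul.injective hw.symm
        refine congrArg Additive.ofMul (congrArg (QuotientGroup.mk (s := U.subgroupOf W)) (Subtype.ext ?_))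
        show (1 : G) * (w : G) * (1 : G)⁻¹ = w
        rw [one_mul, inv_one, mul_one]
      map_mul' := fun g h => by
        ext x
        obtain ⟨w, hw⟩ := QuotientGroup.mk'_surjective (U.subgroupOf W) x.toMul
        obtain rfl : x = Additive.ofMul (QuotientGroup.mk w) := Additive.toMul.injective hw.symm
        refine congrArg Additive.ofMul (congrArg (QuotientGroup.mk (s := U.subgroupOf W)) (Subtype.ext ?_))
        show g * h * (w : G) * (g * h)⁻¹ = g * (h * w * h⁻¹) * g⁻¹
        group }
  obtain ⟨M, ρ, hρ⟩ := exists_linear hexp ρ₀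
  refine ⟨Additive (W ⧸ U.subgroupOf W), inferInstance, M, fun w => Additive.ofMul (QuotientGroup.mk w), ρ,
    ?_, ?_, ?_, ?_⟩
  · intro u v; rfl
  · intro u
    rw [← toMul_eq_one]
    exact QuotientGroup.eq_one_iff u
  · intro x
    obtain ⟨w, hw⟩ := QuotientGroup.mk'_surjective (U.subgroupOf W) x.toMul
    exact ⟨w, Additive.toMul.injective hw⟩
  · intro g u; rw [hρ]; rfl

end Cfsg.Agent.Transfer.ThompsonPC
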