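import Cfsg.Agent.Transfer.ThompsonPC.Replace
import Cfsg.Agent.Transfer.ThompsonPC.Algebra
import Cfsg.Agent.Transfer.ThompsonPC.ModuleQuot
import Cfsg.Agent.OddLocal.RankTwo.Metacyclic
import Mathlib.Algebra.Module.ZMod
import Mathlib.Data.Nat.ChineseRemainder
import Mathlib.GroupTheory.Commutator.Basic

/-! The impossible configuration: a largest abelian subgroup outside `O` when an abelian `p'`-section acts on `O`. -/

set_option autoImplicit false
set_option linter.style.haveILetI false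

namespace Cfsg.Agent.Transfer.ThompsonPC

open Subgroup Cfsg.Agent.FusionZJ
open scoped commutatorElement

variable {G : Type*} [Group G] [Finite G] {p : ℕ} [hp : Fact p.Prime]

theorem commute_of_comm_fixed {l y : G} (hl : (orderOf l).Coprime p) {r : ℕ} (hyp : ⁅l, y⁆ ^ p ^ r = 1)
    (hfix : Commute l ⁅l, y⁆) : Commute l y := by
  set z := ⁅l, y⁆ with hz
  have h1 : l * y * l⁻¹ = z * y := by rw [hz, commutatorElement_def, inv_mul_cancel_right]
  have hn : ∀ n : ℕ, l ^ n * y * (l ^ n)⁻¹ = z ^ n * y := by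
    intro n
    induction n with
    | zero => simp
    | succ n ih =>
      calc l ^ (n + 1) * y * (l ^ (n + 1))⁻¹ = l * (l ^ n * y * (l ^ n)⁻¹) * l⁻¹ := by rw [pow_succ']; group
        _ = (l * z ^ n) * y * l⁻¹ := by rw [ih]; simp only [mul_assoc]
        _ = z ^ n * (l * y * l⁻¹) := by rw [(hfix.pow_right n).eq]; simp only [mul_assoc]
        _ = z ^ (n + 1) * y := by rw [h1, pow_succ, mul_assoc]
  have h2 := hn (orderOf l)
  rw [pow_orderOf_eq_one, one_mul, inv_one, mul_one] at h2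
  have hz1 : z = 1 := by
    have h3 : z ^ orderOf l = 1 := (mul_eq_right.mp h2.symm)
    have := pow_gcd_eq_one.mpr ⟨h3, hyp⟩
    rwa [(hl.pow_right r), pow_one] at this
  exact commutatorElement_eq_one_iff_mul_comm.mp hz1

/-- Commutators with central values are multiplicative on the left. -/
theorem comm_mul_left {a b c : G} (h : a * ⁅b, c⁆ = ⁅b, c⁆ * a) : ⁅a * b, c⁆ = ⁅b, c⁆ * ⁅a, c⁆ := by
  calc ⁅a * b, c⁆ = a * ⁅b, c⁆ * a⁻¹ * ⁅a, c⁆ := by simp only [commutatorElement_def]; group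
    _ = _ := by rw [h, mul_inv_cancel_right]

theorem comm_mul_right {a b c : G} (h : b * ⁅a, c⁆ = ⁅a, c⁆ * b) : ⁅a, b * c⁆ = ⁅a, b⁆ * ⁅a, c⁆ := by
  calc ⁅a, b * c⁆ = ⁅a, b⁆ * (b * ⁅a, c⁆ * b⁻¹) := by simp only [commutatorElement_def]; group
    _ = _ := by rw [h, mul_inv_cancel_right]

theorem config_false (hp5 : 5 ≤ p) {S O L A : Subgroup G} [O.Normal] [L.Normal] (hS : IsPGroup p S)
    (hOS : O ≤ S) (hLab : ⁅L, L⁆ ≤ O) (hcop : (O.relIndex L).Coprime p) (hA : IsMaxAb S A) {a : G}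
    (ha : a ∈ A) (hAO : ∀ d ∈ A, ∃ i : ℕ, (a ^ i)⁻¹ * d ∈ O)
    (hfix : ∀ i, 1 ≤ i → i ≤ 6 → i ≠ 5 → ∀ l ∈ L, ⁅a ^ i, l⁆ ∈ O → l ∈ O)
    (hact : ∃ l ∈ L, (orderOf l).Coprime p ∧ ∃ o ∈ O, ¬ Commute l o) : False := by
  classical
  have hOp : IsPGroup p O := hS.to_le hOS
  set T := Subgroup.closure {l : G | l ∈ L ∧ (orderOf l).Coprime p} with hT
  have hTL : T ≤ L := (Subgroup.closure_le _).mpr fun l hl => hl.1
  haveI hTn : T.Normal := by
    refine ⟨fun t ht g => ?_⟩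
    induction ht using Subgroup.closure_induction with
    | mem l hl =>
      refine Subgroup.subset_closure ⟨(inferInstance : L.Normal).conj_mem l hl.1 g, ?_⟩
      rw [show g * l * g⁻¹ = (MulAut.conj g).toMonoidHom l from rfl,
        orderOf_injective _ (MulAut.conj g).injective]
      exact hl.2
    | one => simp
    | mul u v _ _ hu hv => rw [← conj_mul]; exact T.mul_mem hu hv
    | inv u _ hu => rw [← conj_inv]; exact T.inv_mem hu
  -- a minimal normal subgroup of `O` moved by `T`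
  obtain ⟨W, ⟨hWn, hWO, hWT⟩, hWmin⟩ := Set.Finite.exists_minimalFor (fun X : Subgroup G => X)
    {X : Subgroup G | X.Normal ∧ X ≤ O ∧ ¬ T ≤ centralizer (X : Set G)} (Set.toFinite _) ⟨O, inferInstance, le_rfl, by
      obtain ⟨l, hl, hlo, o, ho, hne⟩ := hact
      exact fun h => hne ((h (Subgroup.subset_closure ⟨hl, hlo⟩) o ho).symm)⟩
  haveI := hWn
  have hlow : ∀ X : Subgroup G, X.Normal → X < W → T ≤ centralizer (X : Set G) := fun X hX hlt => by
    by_contra hT'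
    exact hlt.not_ge (hWmin ⟨hX, hlt.le.trans hWO, hT'⟩ hlt.le)
  have hWbot : (⊥ : Subgroup G) < W := bot_lt_iff_ne_bot.mpr fun h => hWT (by
    rintro t - x hx
    rw [h] at hx
    rw [Subgroup.mem_bot.mp hx, one_mul, mul_one])
  obtain ⟨U, ⟨hUn, hUW⟩, hUmax⟩ := Set.Finite.exists_maximalFor (fun X : Subgroup G => X)
    {X : Subgroup G | X.Normal ∧ X < W} (Set.toFinite _) ⟨⊥, inferInstance, hWbot⟩
  haveI := hUn
  have hchief : ∀ X : Subgroup G, X.Normal → U ≤ X → X ≤ W → (∃ x ∈ X, x ∉ U) → X = W := by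
    intro X hX h1 h2 ⟨x, hx, hxU⟩
    by_contra hne
    exact hxU (hUmax ⟨hX, lt_of_le_of_ne h2 hne⟩ h1 hx)
  have hTU : ∀ u ∈ U, ∀ t ∈ T, u * t = t * u := fun u hu t ht => hlow U hUn hUW ht u hu
  have hWp : IsPGroup p W := hOp.to_le hWO
  -- `[W, T] = W`
  have hWTne : ¬ ⁅W, T⁆ ≤ U := by
    intro hle
    refine hWT (show T ≤ _ from ?_)
    rw [hT, Subgroup.closure_le]
    intro l hl y hy
    have hlT : l ∈ T := Subgroup.subset_closure hl
    have hc : ⁅l, y⁆ ∈ U := hle (Subgroup.commutator_comm T W ▸ Subgroup.commutator_mem_commutator hlT hy)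
    obtain ⟨r, hr⟩ := hWp ⟨⁅l, y⁆, hUW.le hc⟩
    exact ((commute_of_comm_fixed hl.2 (by simpa using congrArg Subtype.val hr) (hTU _ hc l hlT).symm).symm).eq
  have hWTeq : ⁅W, T⁆ = W := by
    have h1 : ⁅W, T⁆ ≤ W := Subgroup.commutator_le_left W T
    by_contra hne
    refine hWT (show T ≤ _ from ?_)
    have hc' := hlow ⁅W, T⁆ inferInstance (lt_of_le_of_ne h1 hne)
    rw [hT, Subgroup.closure_le]
    intro l hl y hy
    have hlT : l ∈ T := Subgroup.subset_closure hl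
    have hc : ⁅l, y⁆ ∈ ⁅W, T⁆ := Subgroup.commutator_comm T W ▸ Subgroup.commutator_mem_commutator hlT hy
    obtain ⟨r, hr⟩ := hWp ⟨⁅l, y⁆, h1 hc⟩
    exact ((commute_of_comm_fixed hl.2 (by simpa using congrArg Subtype.val hr)
      ((hc' hlT _ hc).symm)).symm).eq
  set π := QuotientGroup.mk' U with hπ
  have hπU : ∀ x : G, π x = 1 ↔ x ∈ U := fun x => QuotientGroup.eq_one_iff x
  have hπs := QuotientGroup.mk'_surjective U
  -- `O` centralizes `W` modulo `U`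
  have hWO' : ∀ w ∈ W, ∀ o ∈ O, ⁅w, o⁆ ∈ U := by
    haveI : (O.map π).Normal := (inferInstance : O.Normal).map π hπs
    haveI : (W.map π).Normal := hWn.map π hπs
    haveI : Group.IsNilpotent ↥(O.map π) := (hOp.map π).isNilpotent
    set F := W ⊓ (centralizer ((O.map π : Subgroup (G ⧸ U)) : Set (G ⧸ U))).comap π with hF
    have hUF : U ≤ F := fun u hu => ⟨hUW.le hu, by
      show π u ∈ centralizer _
      rw [(hπU u).mpr hu]; exact one_mem _⟩
    obtain ⟨z, hz, hz1, hzc⟩ := OddLocal.exists_ne_one_mem_center_of_normal ((W.map π).subgroupOf (O.map π))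
      (fun h => by
        rw [Subgroup.subgroupOf_eq_bot, disjoint_iff, inf_eq_left.mpr (Subgroup.map_mono hWO),
          Subgroup.map_eq_bot_iff, QuotientGroup.ker_mk'] at h
        exact hUW.not_ge h)
    obtain ⟨w, hw, hwz⟩ := Subgroup.mem_subgroupOf.mp hz
    have hFW : F = W := hchief F inferInstance hUF inf_le_left ⟨w, ⟨hw, by
      show π w ∈ centralizer _
      rw [hwz]
      exact fun q hq => congrArg Subtype.val (Subgroup.mem_center_iff.mp hzc ⟨q, hq⟩)⟩, fun h => hz1 (by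
      refine Subtype.ext ?_
      rw [← hwz, (hπU w).mpr h]; rfl)⟩
    intro w hw o ho
    rw [← hπU, map_commutatorElement, commutatorElement_eq_one_iff_mul_comm]
    exact ((hFW.ge hw).2 _ ⟨o, ho, rfl⟩).symm
  have hWW : ∀ w ∈ W, ∀ v ∈ W, ⁅w, v⁆ ∈ U := fun w hw v hv => hWO' w hw v (hWO hv)
  -- `U` is central in `W`
  have hUc : ∀ u ∈ U, ∀ w ∈ W, u * w = w * u := by
    have h1 : ⁅⁅T, U⁆, W⁆ = ⊥ := by
      rw [show ⁅T, U⁆ = ⊥ from commutator_eq_bot_iff_le_centralizer.mpr fun t ht u hu => hTU u hu t ht,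
        commutator_bot_left]
    have h2 : ⁅⁅U, W⁆, T⁆ = ⊥ := by
      rw [commutator_eq_bot_iff_le_centralizer, Subgroup.le_centralizer_iff]
      intro t ht c hc
      exact hTU c (Subgroup.commutator_le_left U W hc) t ht
    have h3 : ⁅⁅W, T⁆, U⁆ = ⊥ := commutator_commutator_eq_bot_of_rotate h1 h2
    rw [hWTeq, commutator_eq_bot_iff_le_centralizer] at h3
    exact fun u hu w hw => h3 hw u hu
  -- the quotient has exponent `p`
  have hWpow : ∀ w ∈ W, w ^ p ∈ U := by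
    have hmul : ∀ u ∈ W, ∀ v ∈ W, π ((u * v) ^ p) = π (u ^ p) * π (v ^ p) := fun u hu v hv => by
      have : Commute (π u) (π v) := by
        rw [Commute, SemiconjBy, ← commutatorElement_eq_one_iff_mul_comm, ← map_commutatorElement, hπU]
        exact hWW u hu v hv
      rw [map_pow, map_mul, this.mul_pow, map_pow, map_pow]
    let F : Subgroup G :=
      { carrier := {w | w ∈ W ∧ w ^ p ∈ U}
        one_mem' := ⟨one_mem W, by rw [one_pow]; exact one_mem U⟩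
        mul_mem' := fun {u v} hu hv => ⟨W.mul_mem hu.1 hv.1, by
          rw [← hπU, hmul u hu.1 v hv.1, (hπU _).mpr hu.2, (hπU _).mpr hv.2, one_mul]⟩
        inv_mem' := fun {u} hu => ⟨W.inv_mem hu.1, by rw [inv_pow]; exact U.inv_mem hu.2⟩ }
    haveI hFn : F.Normal := ⟨fun u hu g => ⟨hWn.conj_mem u hu.1 g, by
      rw [conj_pow]; exact hUn.conj_mem _ hu.2 g⟩⟩
    obtain ⟨w, hw, hwU⟩ := SetLike.exists_of_lt hUW
    obtain ⟨r, hr⟩ := hWp ⟨w, hw⟩
    have hr' : w ^ p ^ r ∈ U := by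
      rw [show w ^ p ^ r = 1 by simpa using congrArg Subtype.val hr]; exact one_mem U
    clear hr
    obtain ⟨v, hv, hvU, hvp⟩ : ∃ v ∈ W, v ∉ U ∧ v ^ p ∈ U := by
      induction r generalizing w with
      | zero => exact absurd (by simpa using hr') hwU
      | succ r ih =>
        by_cases hp' : w ^ p ∈ U
        · exact ⟨w, hw, hwU, hp'⟩
        · exact ih (w ^ p) (W.pow_mem hw p) hp' (by rwa [← pow_mul, ← pow_succ'])
    have hFW : F = W := hchief F hFn (fun u hu => ⟨hUW.le hu, U.pow_mem hu p⟩) (fun u hu => hu.1)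
      ⟨v, ⟨hv, hvp⟩, hvU⟩
    exact fun w hw => (hFW.ge hw).2
  -- the module `W / U`
  obtain ⟨V, _, _, ι, ρ, hιmul, hι0, hιsurj, hιconj⟩ := exists_module (p := p) W U hWW hWpow
  have hιinv : ∀ u : W, ι u⁻¹ = -ι u := fun u => by
    rw [eq_neg_iff_add_eq_zero, ← hιmul, inv_mul_cancel, hι0]; exact one_mem U
  have hιeq : ∀ u v : W, π (u : G) = π (v : G) → ι u = ι v := fun u v h => by
    have h0 : ι (u⁻¹ * v) = 0 := (hι0 _).mpr (QuotientGroup.eq.mp h)
    rw [hιmul, hιinv, neg_add_eq_zero] at h0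
    exact h0
  have hρO : ∀ o ∈ O, ρ o = 1 := fun o ho => by
    refine LinearMap.ext fun x => ?_
    obtain ⟨u, rfl⟩ := hιsurj x
    rw [hιconj, Module.End.one_apply]
    refine hιeq _ _ ?_
    show π (o * u * o⁻¹) = π u
    rw [map_mul, map_mul, map_inv, mul_inv_eq_iff_eq_mul]
    exact (commutatorElement_eq_one_iff_mul_comm.mp
      (by rw [← map_commutatorElement, hπU]; exact hWO' u u.2 o ho)).symm
  -- the section `L / O`
  haveI : (O.subgroupOf L).Normal := inferInstance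
  have hcommK : ∀ x y : L ⧸ O.subgroupOf L, x * y = y * x := fun x y => by
    induction x using QuotientGroup.induction_on with
    | _ x =>
    induction y using QuotientGroup.induction_on with
    | _ y =>
    rw [← commutatorElement_eq_one_iff_mul_comm, ← QuotientGroup.mk'_apply, ← QuotientGroup.mk'_apply,
      ← map_commutatorElement, QuotientGroup.mk'_apply, QuotientGroup.eq_one_iff, Subgroup.mem_subgroupOf]
    exact hLab (Subgroup.commutator_mem_commutator x.2 y.2)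
  set K := L ⧸ O.subgroupOf L with hK
  let σ : K →* Module.End (ZMod p) (V) := QuotientGroup.lift (O.subgroupOf L) (ρ.comp L.subtype)
    (fun l hl => hρO l hl)
  let τ : K →* K := QuotientGroup.map _ _ (MulAut.conjNormal a : MulAut L).toMonoidHom
    (fun l hl => by
      show a * (l : G) * a⁻¹ ∈ O
      exact (inferInstance : O.Normal).conj_mem _ hl a)
  have hτit : ∀ (i : ℕ) (l : L), τ^[i] (QuotientGroup.mk l) =
      QuotientGroup.mk ⟨a ^ i * l * (a ^ i)⁻¹, (inferInstance : L.Normal).conj_mem l l.2 _⟩ := by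
    intro i
    induction i with
    | zero => intro l; simp
    | succ i ih =>
      intro l
      rw [Function.iterate_succ_apply', ih]
      refine congrArg (QuotientGroup.mk (s := O.subgroupOf L)) (Subtype.ext ?_)
      show a * (a ^ i * l * (a ^ i)⁻¹) * a⁻¹ = a ^ (i + 1) * l * (a ^ (i + 1))⁻¹
      rw [pow_succ']; group
  have hτ : ∀ i, 1 ≤ i → i ≤ 6 → i ≠ 5 → ∀ k : K, τ^[i] k = k → k = 1 := by
    intro i h1 h2 h5 k hk
    induction k using QuotientGroup.induction_on with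
    | _ l =>
    rw [hτit, QuotientGroup.eq, Subgroup.mem_subgroupOf] at hk
    refine (QuotientGroup.eq_one_iff l).mpr (Subgroup.mem_subgroupOf.mpr ?_)
    refine hfix i h1 h2 h5 l l.2 ?_
    have h3 := (inferInstance : O.Normal).conj_mem _ (O.inv_mem hk) (l : G)
    simp only [Subgroup.coe_mul, Subgroup.coe_inv] at h3
    rw [show (l : G) * ((a ^ i * l * (a ^ i)⁻¹)⁻¹ * l)⁻¹ * (l : G)⁻¹ = ⁅a ^ i, (l : G)⁆ by
      simp only [commutatorElement_def]; group] at h3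
    exact h3
  have hKcard : (Nat.card K).Coprime p := hcop
  have hrep : ∀ k : K, ∃ t : L, (t : G) ∈ T ∧ QuotientGroup.mk t = k := by
    intro k
    induction k using QuotientGroup.induction_on with
    | _ l =>
    set N := orderOf (l : G) with hN
    obtain ⟨c, hc1, hc2⟩ := Nat.chineseRemainder
      ((hKcard.symm).pow_left (N.factorization p) : (p ^ N.factorization p).Coprime (Nat.card K)) 0 1
    refine ⟨l ^ c, Subgroup.subset_closure ⟨L.pow_mem l.2 c, ?_⟩, ?_⟩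
    · refine Nat.Coprime.coprime_dvd_left ?_ (Nat.coprime_ordCompl hp.out (orderOf_pos (l : G)).ne').symm
      refine orderOf_dvd_of_pow_eq_one ?_
      rw [Subgroup.coe_pow, ← pow_mul]
      refine orderOf_dvd_iff_pow_eq_one.mp ?_
      rw [← hN]
      calc N = p ^ N.factorization p * (N / p ^ N.factorization p) := (Nat.ordProj_mul_ordCompl_eq_self N p).symm
        _ ∣ _ := Nat.mul_dvd_mul_right (Nat.modEq_zero_iff_dvd.mp hc1) _
    · rw [QuotientGroup.mk_pow]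
      exact (pow_eq_pow_iff_modEq.mpr (hc2.of_dvd (orderOf_dvd_natCard _))).trans (pow_one _)
  -- a vector fixed by `a` and moved by `K`
  obtain ⟨e, he⟩ := hS ⟨a, hA.le ha⟩
  have hae : a ^ p ^ e = 1 := by simpa using congrArg Subtype.val he
  have hρae : ρ a ^ p ^ e = 1 := by rw [← map_pow, hae, map_one]
  have hnil : (1 - ρ a) ^ p ^ e = 0 := by
    haveI : CharP (Polynomial (ZMod p)) p := charP_of_injective_algebraMap (Polynomial.C_injective (R := ZMod p)) p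
    rw [show (1 : Module.End (ZMod p) (V)) - ρ a =
      Polynomial.aeval (ρ a) ((1 : (Polynomial (ZMod p))) - Polynomial.X) by simp, ← map_pow, sub_pow_char_pow, one_pow]
    simp [hρae]
  obtain ⟨x₀, hx₀U, hx₀fix⟩ : ∃ x₀ : W, (x₀ : G) ∉ U ∧ ρ a (ι x₀) = ι x₀ := by
    obtain ⟨w, hw, hwU⟩ := SetLike.exists_of_lt hUW
    have hv0 : ι ⟨w, hw⟩ ≠ 0 := fun h => hwU ((hι0 _).mp h)
    have hex : ∃ n, ((1 - ρ a) ^ n : Module.End (ZMod p) V) (ι ⟨w, hw⟩) = 0 := ⟨p ^ e, by rw [hnil]; rfl⟩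
    obtain ⟨n, hn⟩ : ∃ n, Nat.find hex = n + 1 := ⟨Nat.find hex - 1, by
      have : Nat.find hex ≠ 0 := fun h => hv0 (by
        have := Nat.find_spec hex
        rwa [h, pow_zero, Module.End.one_apply] at this)
      omega⟩
    obtain ⟨x, hx⟩ := hιsurj (((1 - ρ a) ^ n : Module.End (ZMod p) V) (ι ⟨w, hw⟩))
    refine ⟨x, fun h => ?_, ?_⟩
    · have h0 := (hι0 x).mpr h
      rw [hx] at h0
      exact Nat.find_min hex (by omega : n < Nat.find hex) h0
    · have h := Nat.find_spec hex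
      rw [hn, pow_succ', Module.End.mul_apply, LinearMap.sub_apply, Module.End.one_apply, sub_eq_zero] at h
      rw [hx]; exact h.symm
  have hmoved : ∃ k : K, σ k (ι x₀) ≠ ι x₀ := by
    by_contra hall
    push Not at hall
    set F := W ⊓ (centralizer ((T.map π : Subgroup (G ⧸ U)) : Set (G ⧸ U))).comap π with hF
    haveI : (T.map π).Normal := hTn.map π hπs
    have hUF : U ≤ F := fun u hu => ⟨hUW.le hu, by
      show π u ∈ centralizer _
      rw [(hπU u).mpr hu]; exact one_mem _⟩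
    have hFW : F = W := hchief F inferInstance hUF inf_le_left ⟨x₀, ⟨x₀.2, by
      rintro _ ⟨t, ht, rfl⟩
      have h : ρ t (ι x₀) = ι x₀ := hall (QuotientGroup.mk ⟨t, hTL ht⟩)
      rw [hιconj] at h
      have h0 : ι (⟨t * x₀ * t⁻¹, hWn.conj_mem x₀ x₀.2 t⟩⁻¹ * x₀) = 0 := by
        rw [hιmul, hιinv, h, neg_add_cancel]
      have h1 : π ((t * (x₀ : G) * t⁻¹)⁻¹ * x₀) = 1 := (hπU _).mpr ((hι0 _).mp h0)
      rw [map_mul, map_inv, inv_mul_eq_one] at h1
      have h' : π t * π x₀ * (π t)⁻¹ = π x₀ := by rw [← map_mul, ← map_inv, ← map_mul]; exact h1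
      exact mul_inv_eq_iff_eq_mul.mp h'⟩, hx₀U⟩
    refine hWTne (Subgroup.commutator_le.mpr fun w hw t ht => ?_)
    rw [← hπU, map_commutatorElement, commutatorElement_eq_one_iff_mul_comm]
    exact ((hFW.ge hw).2 _ ⟨t, ht, rfl⟩).symm
  obtain ⟨k, hk⟩ := exists_symm_ne_zero (p := p) hp5 hcommK hKcard σ τ hτ (ι x₀) hmoved
  obtain ⟨t₀, ht₀, rfl⟩ := hrep k
  -- commuting symmetric vectors
  let y : G → G := fun g => (g * x₀ * g⁻¹) * (g⁻¹ * x₀ * g)
  have hconjW : ∀ g : G, g * x₀ * g⁻¹ ∈ W := fun g => hWn.conj_mem _ x₀.2 g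
  have hconjW' : ∀ g : G, g⁻¹ * x₀ * g ∈ W := fun g => by simpa using hconjW g⁻¹
  have hyW : ∀ g : G, y g ∈ W := fun g => W.mul_mem (hconjW g) (hconjW' g)
  have hcW : ∀ u ∈ W, ∀ v ∈ W, ∀ z ∈ W, z * ⁅u, v⁆ = ⁅u, v⁆ * z := fun u hu v hv z hz =>
    (hUc _ (hWW u hu v hv) z hz).symm
  let γ : G → G := fun q => ⁅(x₀ : G), q * x₀ * q⁻¹⁆
  have hγU : ∀ q : G, γ q ∈ U := fun q => hWW _ x₀.2 _ (hconjW q)
  have hTcl : ∀ {g h : G}, g ∈ T → h ∈ T → ⁅g * x₀ * g⁻¹, h * x₀ * h⁻¹⁆ = γ (g⁻¹ * h) := by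
    intro g h hg hh
    have h1 := hTU _ (hγU (g⁻¹ * h)) g hg
    calc ⁅g * x₀ * g⁻¹, h * x₀ * h⁻¹⁆ = g * γ (g⁻¹ * h) * g⁻¹ := by
          simp only [γ, commutatorElement_def]; group
      _ = γ (g⁻¹ * h) := by rw [← h1, mul_inv_cancel_right]
  have hγinv : ∀ q ∈ T, γ q⁻¹ = (γ q)⁻¹ := by
    intro q hq
    have h1 := hTU _ (U.inv_mem (hγU q)) q⁻¹ (T.inv_mem hq)
    calc γ q⁻¹ = q⁻¹ * (γ q)⁻¹ * q⁻¹⁻¹ := by simp only [γ, commutatorElement_def]; group
      _ = (γ q)⁻¹ := by rw [← h1, mul_inv_cancel_right]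
  have hγmod : ∀ q ∈ T, ∀ q' ∈ T, q⁻¹ * q' ∈ O → γ q' = γ q := by
    intro q hq q' _ ho
    obtain ⟨o, ho', rfl⟩ : ∃ o ∈ O, q' = q * o := ⟨_, ho, (mul_inv_cancel_left q q').symm⟩
    set u := ⁅(x₀ : G), o⁆⁻¹ with hu
    have huU : u ∈ U := U.inv_mem (hWO' _ x₀.2 o ho')
    have e : q * o * x₀ * (q * o)⁻¹ = u * (q * x₀ * q⁻¹) := by
      calc q * o * x₀ * (q * o)⁻¹ = (q * u * q⁻¹) * (q * x₀ * q⁻¹) := by
            simp only [hu, commutatorElement_def]; group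
        _ = _ := by rw [← hTU u huU q hq, mul_inv_cancel_right]
    show ⁅(x₀ : G), q * o * x₀ * (q * o)⁻¹⁆ = _
    rw [e, comm_mul_right ((hcW _ x₀.2 _ (hconjW q) u (hUW.le huU))),
      commutatorElement_eq_one_iff_mul_comm.mpr (hUc u huU _ x₀.2).symm, one_mul]
  have hycomm : ∀ g ∈ T, ∀ h ∈ T, y g * y h = y h * y g := by
    intro g hg h hh
    have hmod : ∀ {u v : G}, u ∈ T → v ∈ T → ⁅u, v⁆ ∈ O := fun hu hv =>
      hLab (Subgroup.commutator_mem_commutator (hTL hu) (hTL hv))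
    have e : ∀ q : G, q⁻¹ * x₀ * q = q⁻¹ * x₀ * q⁻¹⁻¹ := fun q => by rw [inv_inv]
    have hgi := T.inv_mem hg
    have hhi := T.inv_mem hh
    rw [← commutatorElement_eq_one_iff_mul_comm]
    show ⁅(g * x₀ * g⁻¹) * (g⁻¹ * x₀ * g), (h * x₀ * h⁻¹) * (h⁻¹ * x₀ * h)⁆ = 1
    rw [comm_mul_left (hcW _ (hconjW' g) _ (hyW h) _ (hconjW g)),
      comm_mul_right (hcW _ (hconjW' g) _ (hconjW' h) _ (hconjW h)),
      comm_mul_right (hcW _ (hconjW g) _ (hconjW' h) _ (hconjW h)), e g, e h,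
      hTcl hgi hh, hTcl hgi hhi, hTcl hg hh, hTcl hg hhi, inv_inv]
    have h1 : γ (g * h⁻¹) = (γ (g⁻¹ * h))⁻¹ := by
      rw [← hγinv _ (T.mul_mem hgi hh)]
      refine hγmod _ (T.inv_mem (T.mul_mem hgi hh)) _ (T.mul_mem hg hhi) ?_
      rw [inv_inv]
      have := hmod hgi hh
      rw [commutatorElement_def, inv_inv] at this
      simpa [mul_assoc] using this
    have h2 : γ (g⁻¹ * h⁻¹) = (γ (g * h))⁻¹ := by
      rw [← hγinv _ (T.mul_mem hg hh)]
      refine hγmod _ (T.inv_mem (T.mul_mem hg hh)) _ (T.mul_mem hgi hhi) ?_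
      rw [inv_inv]
      have := hmod hg hh
      rw [commutatorElement_def] at this
      simpa [mul_assoc] using this
    rw [h2, h1]
    have hc : ∀ u ∈ U, ∀ v ∈ U, u * v = v * u := fun u hu v hv => hUc u hu v (hUW.le hv)
    have hA1 := hγU (g⁻¹ * h)
    have hA2 := hγU (g * h)
    group
  -- `[x, A]` is abelian
  have hx₀d : ∀ d ∈ A, ∃ u ∈ U, d * x₀ * d⁻¹ = x₀ * u := by
    intro d hd
    obtain ⟨i, hi⟩ := hAO d hd
    have hρd : ρ d = ρ a ^ i := by
      rw [← mul_inv_cancel_left (a ^ i) d, map_mul, hρO _ hi, mul_one, map_pow]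
    have hfi : ∀ n : ℕ, (ρ a ^ n) (ι x₀) = ι x₀ := fun n => by
      induction n with
      | zero => rfl
      | succ n ih => rw [pow_succ', Module.End.mul_apply, ih, hx₀fix]
    refine ⟨(x₀ : G)⁻¹ * (d * x₀ * d⁻¹), ?_, (mul_inv_cancel_left _ _).symm⟩
    have h : ι (x₀⁻¹ * ⟨d * x₀ * d⁻¹, hconjW d⟩) = 0 := by
      rw [hιmul, hιinv, ← hιconj, hρd, hfi, neg_add_cancel]
    exact (hι0 _).mp h
  have hdy : ∀ d ∈ A, ∀ g ∈ T, ∃ u ∈ U, d * y g * d⁻¹ = y (d * g * d⁻¹) * u := by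
    intro d hd g hg
    obtain ⟨u, hu, hux⟩ := hx₀d d hd
    set g' := d * g * d⁻¹ with hg'def
    have hg' : g' ∈ T := hTn.conj_mem g hg d
    refine ⟨u * u, U.mul_mem hu hu, ?_⟩
    have c1 := hTU u hu g'⁻¹ (T.inv_mem hg')
    have c2 := hTU u hu g' hg'
    have c3 := hUc u hu _ (hconjW' g')
    calc d * y g * d⁻¹ = (g' * (d * x₀ * d⁻¹) * g'⁻¹) * (g'⁻¹ * (d * x₀ * d⁻¹) * g') := by
          simp only [y, hg'def]; group
      _ = (g' * x₀ * (u * g'⁻¹)) * (g'⁻¹ * x₀ * (u * g')) := by rw [hux]; simp only [mul_assoc]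
      _ = (g' * x₀ * g'⁻¹) * (u * (g'⁻¹ * x₀ * g')) * u := by rw [c1, c2]; simp only [mul_assoc]
      _ = _ := by rw [c3]; simp only [y, mul_assoc]
  obtain ⟨x, hxdef⟩ : ∃ x : G, x = y (t₀ : G) := ⟨_, rfl⟩
  set Y := Subgroup.closure ((y '' (T : Set G)) ∪ (U : Set G)) with hY
  have hYc : ∀ u ∈ Y, ∀ v ∈ Y, u * v = v * u := by
    haveI : IsMulCommutative Y := Subgroup.isMulCommutative_closure (by
      rintro u (⟨g, hg, rfl⟩ | hu) v (⟨h, hh, rfl⟩ | hv)
      · exact hycomm g hg h hh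
      · exact (hUc v hv _ (hyW g)).symm
      · exact hUc u hu _ (hyW h)
      · exact hUc u hu v (hUW.le hv))
    exact fun u hu v hv => congrArg Subtype.val (mul_comm' (⟨u, hu⟩ : Y) ⟨v, hv⟩)
  have hxW : x ∈ W := hxdef ▸ hyW _
  have hMY : commSet x A ≤ Y := by
    rw [commSet, Subgroup.closure_le]
    rintro _ ⟨d, hd, rfl⟩
    obtain ⟨u, hu, hdu⟩ := hdy d hd t₀ ht₀
    have e : ⁅x, d⁆ = x * (d * x * d⁻¹)⁻¹ := by rw [commutatorElement_def]; group
    rw [SetLike.mem_coe]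
    show ⁅x, d⁆ ∈ Y
    rw [e, hxdef, hdu]
    exact Y.mul_mem (Subgroup.subset_closure (Or.inl ⟨t₀, ht₀, rfl⟩)) (Y.inv_mem (Y.mul_mem
      (Subgroup.subset_closure (Or.inl ⟨_, hTn.conj_mem _ ht₀ d, rfl⟩)) (Subgroup.subset_closure (Or.inr hu))))
  have hMab : ∀ u ∈ commSet x A, ∀ v ∈ commSet x A, u * v = v * u := fun u hu v hv =>
    hYc u (hMY hu) v (hMY hv)
  -- the element `⁅⁅x, a⁆, a⁆`
  have hm : ⁅⁅x, a⁆, a⁆ ∈ commSet x A := by
    have h1 : ⁅x, a⁆ ∈ commSet x A := Subgroup.subset_closure ⟨a, ha, rfl⟩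
    have h2 : ⁅x, a * a⁆ ∈ commSet x A := Subgroup.subset_closure ⟨a * a, A.mul_mem ha ha, rfl⟩
    rw [show ⁅⁅x, a⁆, a⁆ = ⁅x, a⁆ * (a * ⁅x, a⁆ * a⁻¹)⁻¹ by simp only [commutatorElement_def]; group, conj_comm]
    exact mul_mem h1 (inv_mem (mul_mem (inv_mem h1) h2))
  obtain ⟨d, hd, hdf⟩ := exists_comm_mod hA (hOS (hWO hxW)) hMab hm
  obtain ⟨i, hi⟩ := hAO d hd
  have hρd : ρ d = ρ a ^ i := by
    rw [← mul_inv_cancel_left (a ^ i) d, map_mul, hρO _ hi, mul_one, map_pow]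
  have hcommW : ∀ (u : W) (g : G), ⁅(u : G), g⁆ ∈ W := fun u g => by
    rw [show ⁅(u : G), g⁆ = u * (g * (u : G)⁻¹ * g⁻¹) by rw [commutatorElement_def]; group]
    exact W.mul_mem u.2 (hWn.conj_mem _ (W.inv_mem u.2) g)
  have hιcomm : ∀ (u : W) (g : G), ι ⟨⁅(u : G), g⁆, hcommW u g⟩ = (1 - ρ g) (ι u) := fun u g => by
    have e : (⟨⁅(u : G), g⁆, hcommW u g⟩ : W) = u * ⟨g * (u⁻¹ : W) * g⁻¹, hWn.conj_mem _ (u⁻¹).2 g⟩ :=
      Subtype.ext (by simp only [commutatorElement_def, Subgroup.coe_mul, Subgroup.coe_inv]; group)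
    rw [e, hιmul, ← hιconj, hιinv, map_neg, LinearMap.sub_apply, Module.End.one_apply, sub_eq_add_neg]
  set v := ι ⟨x, hxW⟩ with hv
  set f : W := ⟨⁅x, d⁆, hcommW ⟨x, hxW⟩ d⟩⁻¹ * ⟨⁅⁅x, a⁆, a⁆, hcommW ⟨⁅x, a⁆, hcommW ⟨x, hxW⟩ a⟩ a⟩ with hf
  have hfA : (f : G) ∈ A := hdf
  have hffix : ρ a (ι f) = ι f := by
    rw [hιconj]
    refine congrArg ι (Subtype.ext ?_)
    show a * (f : G) * a⁻¹ = f
    rw [hA.comm a ha _ hfA, mul_inv_cancel_right]
  have hkey : ((1 - ρ a) ^ 3 : Module.End (ZMod p) (V)) v =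
      ((1 - ρ a) * (1 - ρ a ^ i) : Module.End (ZMod p) (V)) v := by
    have e : ι f = -((1 - ρ a ^ i) v) + (1 - ρ a) ((1 - ρ a) v) := by
      rw [hf, hιmul, hιinv, hιcomm ⟨x, hxW⟩ d, hρd, hιcomm ⟨⁅x, a⁆, hcommW ⟨x, hxW⟩ a⟩ a,
        hιcomm ⟨x, hxW⟩ a]
    have e2 : (1 - ρ a) (ι f) = 0 := by
      rw [LinearMap.sub_apply, Module.End.one_apply, hffix, sub_self]
    rw [e, map_add, map_neg, neg_add_eq_zero] at e2
    rw [pow_succ', pow_two, Module.End.mul_apply, Module.End.mul_apply, Module.End.mul_apply, e2]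
  have h0 := cube_eq_zero hp5 (ρ a) hρae i v hkey
  -- evaluate at the chosen vector
  set w := ι x₀ with hwdef
  have hσ : ∀ (g : G) (hg : g ∈ L), σ (QuotientGroup.mk ⟨g, hg⟩) = ρ g := fun g hg => rfl
  have hvσ : v = (σ (QuotientGroup.mk t₀) + σ (QuotientGroup.mk t₀)⁻¹) w := by
    rw [LinearMap.add_apply, ← QuotientGroup.mk_inv,
      show (σ (QuotientGroup.mk t₀) : Module.End (ZMod p) (V)) = ρ (t₀ : G) from rfl,
      show (σ (QuotientGroup.mk t₀⁻¹) : Module.End (ZMod p) (V)) = ρ (t₀ : G)⁻¹ from rfl,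
      hwdef, hιconj, hιconj, ← hιmul, hv]
    refine congrArg ι (Subtype.ext ?_)
    simp [hxdef, y, mul_assoc]
  have hpush : ∀ k : K, ρ a * σ k = σ (τ k) * ρ a := by
    intro k
    induction k using QuotientGroup.induction_on with
    | _ l =>
    show ρ a * ρ (l : G) = ρ (a * l * a⁻¹) * ρ a
    rw [← map_mul, ← map_mul, inv_mul_cancel_right]
  have hstep : ∀ k : K, ρ a ((σ k + σ k⁻¹) w) = (σ (τ k) + σ (τ k)⁻¹) w := by
    intro k
    rw [← Module.End.mul_apply, mul_add, hpush, hpush, map_inv, ← add_mul, Module.End.mul_apply, hx₀fix]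
  apply hk
  rw [← h0, hvσ]
  simp only [pow_succ, pow_zero, one_mul, Module.End.mul_apply, LinearMap.sub_apply, Module.End.one_apply,
    map_sub, hstep, Function.iterate_succ_apply', Function.iterate_zero, id_eq]
  abel

end Cfsg.Agent.Transfer.ThompsonPC
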