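import Cfsg.Agent.OddLocal.UniqueSubgroup
import Mathlib.Algebra.Module.BigOperators
import Mathlib.Algebra.Group.End
import Mathlib.Algebra.Ring.GeomSum

/-! A commutative `p`-group acting fixed-point-freely on an abelian `p'`-group is cyclic. -/

set_option autoImplicit false

namespace Cfsg.Agent.Transfer.ThompsonPC

theorem isCyclic_of_fixedFree {Γ X : Type*} [Group Γ] [Finite Γ] [AddCommGroup X] [Finite X]
    [Nontrivial X] {p : ℕ} [hp : Fact p.Prime] (hΓ : IsPGroup p Γ) (hcomm : ∀ u v : Γ, u * v = v * u) (hX : (Nat.card X).Coprime p)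
    (φ : Γ →* AddMonoid.End X) (hfix : ∀ g : Γ, g ≠ 1 → ∀ x : X, φ g x = x → x = 0) : IsCyclic Γ := by
  refine OddLocal.isCyclic_of_uniqueOrderP (Nat.card Γ) hΓ ?_ (Or.inr hcomm) le_rfl
  intro g h hg hh hg1
  by_contra hhg
  obtain ⟨x, hx⟩ := exists_ne (0 : X)
  have hs : ∀ u : Γ, u ^ p = 1 → u ≠ 1 → ∑ i ∈ Finset.range p, φ (u ^ i) x = 0 := by
    intro u hu hu1
    apply hfix u hu1
    have h1 : ∑ i ∈ Finset.range p, φ (u ^ (i + 1)) x = ∑ i ∈ Finset.range p, φ (u ^ i) x := by
      have e1 := Finset.sum_range_succ' (fun i => φ (u ^ i) x) p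
      have e2 := Finset.sum_range_succ (fun i => φ (u ^ i) x) p
      rw [e1, hu, pow_zero] at e2
      exact add_right_cancel e2
    rw [map_sum]
    conv_rhs => rw [← h1]
    refine Finset.sum_congr rfl fun i _ => ?_
    rw [pow_succ', map_mul]; rfl
  have hsum : ∑ i ∈ Finset.range p, ∑ j ∈ Finset.range p, φ ((g ^ i * h) ^ j) x = 0 := by
    refine Finset.sum_eq_zero fun i _ => hs _ ?_ ?_
    · rw [(show Commute (g ^ i) h from hcomm _ _).mul_pow, hh, mul_one, ← pow_mul, mul_comm, pow_mul, hg, one_pow]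
    · intro he
      exact hhg (by rw [(inv_eq_of_mul_eq_one_right he).symm]; exact inv_mem (pow_mem (Subgroup.mem_zpowers g) i))
  rw [Finset.sum_comm] at hsum
  have hterm : ∀ j ∈ Finset.range p, j ≠ 0 → ∑ i ∈ Finset.range p, φ ((g ^ i * h) ^ j) x = 0 := by
    intro j hj hj0
    have hgj : g ^ j ≠ 1 := fun he => by
      have h1 := orderOf_dvd_of_pow_eq_one he
      rw [orderOf_eq_prime hg hg1] at h1
      exact absurd (Nat.le_of_dvd (Nat.pos_of_ne_zero hj0) h1) (not_le.mpr (Finset.mem_range.mp hj))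
    have h2 := congrArg (φ (h ^ j)) (hs (g ^ j) (by rw [← pow_mul, mul_comm, pow_mul, hg, one_pow]) hgj)
    rw [map_sum, map_zero] at h2
    rw [← h2]
    refine Finset.sum_congr rfl fun i _ => ?_
    rw [(show Commute (g ^ i) h from hcomm _ _).mul_pow, ← pow_mul, ← pow_mul, mul_comm i j,
      hcomm (g ^ (j * i)), map_mul]
    rfl
  rw [Finset.sum_eq_single 0 hterm (fun h0 => absurd (Finset.mem_range.mpr hp.out.pos) h0)] at hsum
  simp only [pow_zero, map_one, AddMonoid.End.one_apply, Finset.sum_const, Finset.card_range] at hsum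
  apply hx
  have h3 : addOrderOf x ∣ p := addOrderOf_dvd_of_nsmul_eq_zero hsum
  have h4 : addOrderOf x ∣ Nat.card X := addOrderOf_dvd_natCard x
  have h5 := Nat.dvd_gcd h4 h3
  rw [hX, Nat.dvd_one] at h5
  exact AddMonoid.addOrderOf_eq_one_iff.mp h5

/-- The same for an action by automorphisms of a commutative group. -/
theorem isCyclic_of_fixedFree_mulAut {Γ X : Type*} [Group Γ] [Finite Γ] [Group X] [Finite X]
    [Nontrivial X] (hXab : ∀ x y : X, x * y = y * x) {p : ℕ} [hp : Fact p.Prime] (hΓ : IsPGroup p Γ)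
    (hcomm : ∀ u v : Γ, u * v = v * u) (hX : (Nat.card X).Coprime p)
    (ψ : Γ →* MulAut X) (hfix : ∀ g : Γ, g ≠ 1 → ∀ x : X, ψ g x = x → x = 1) : IsCyclic Γ := by
  let _ : CommGroup X := { (inferInstance : Group X) with mul_comm := hXab }
  let φ : Γ →* AddMonoid.End (Additive X) :=
    { toFun := fun g => MonoidHom.toAdditive (ψ g).toMonoidHom
      map_one' := by
        refine AddMonoidHom.ext fun x => ?_
        show Additive.ofMul (ψ 1 x.toMul) = x
        rw [map_one]; rfl
      map_mul' := fun g h => by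
        refine AddMonoidHom.ext fun x => ?_
        show Additive.ofMul (ψ (g * h) x.toMul) = Additive.ofMul (ψ g (ψ h x.toMul))
        rw [map_mul]; rfl }
  refine isCyclic_of_fixedFree (p := p) (X := Additive X) hΓ hcomm hX φ fun g hg x hx => ?_
  exact Additive.toMul.injective (hfix g hg x.toMul (congrArg Additive.toMul hx))

end Cfsg.Agent.Transfer.ThompsonPC
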