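import Cfsg.Agent.FusionZJ.CenterGroup
import Cfsg.Agent.Transfer.Complement

/-! The automizer condition on the Thompson subgroup. -/

set_option autoImplicit false
set_option linter.style.haveILetI false

namespace Cfsg.Agent.Transfer.ThompsonPC

open Cfsg Cfsg.Agent Cfsg.Agent.FusionZJ Subgroup

universe u

variable {G : Type u} [Group G] {p : ℕ} [hp : Fact p.Prime]

/-- The `p'`-elements normalizing `J(S)` centralize it. -/
def Hyp (p : ℕ) (S : Subgroup G) : Prop :=
  ∀ g ∈ Subgroup.normalizer (thompsonSubgroupAOf S : Set G), (orderOf g).Coprime p →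
    g ∈ Subgroup.centralizer (thompsonSubgroupAOf S : Set G)

/-- Every `p'`-element centralizing a Sylow subgroup gives a normal complement. -/
theorem compl_of_centralized [Finite G] (P : Sylow p G)
    (h : ∀ g : G, (orderOf g).Coprime p → g ∈ Subgroup.centralizer ((P : Subgroup G) : Set G)) :
    HasNormalPComplement p G :=
  hasNormalPComplement_of_frobenius P fun _ hQ _ g _ hgp => Subgroup.centralizer_le hQ (h g hgp)

/-- A lift of prime-to-`p` order. -/
theorem exists_pow_coprime [Finite G] {H : Type*} [Group H] (f : G →* H) (x : G)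
    (hx : (orderOf (f x)).Coprime p) : ∃ c : ℕ, f (x ^ c) = f x ∧ (orderOf (x ^ c)).Coprime p := by
  set N := orderOf x with hN
  obtain ⟨c, hc1, hc2⟩ := Nat.chineseRemainder
    ((hx.symm).pow_left (N.factorization p) : (p ^ N.factorization p).Coprime (orderOf (f x))) 0 1
  refine ⟨c, ?_, ?_⟩
  · rw [map_pow]
    exact (pow_eq_pow_iff_modEq.mpr hc2).trans (pow_one _)
  · refine Nat.Coprime.coprime_dvd_left ?_ (Nat.coprime_ordCompl hp.out (orderOf_pos x).ne').symm
    refine orderOf_dvd_of_pow_eq_one ?_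
    rw [← pow_mul]
    refine orderOf_dvd_iff_pow_eq_one.mp ?_
    rw [← hN]
    calc N = p ^ N.factorization p * (N / p ^ N.factorization p) := (Nat.ordProj_mul_ordCompl_eq_self N p).symm
      _ ∣ _ := Nat.mul_dvd_mul_right (Nat.modEq_zero_iff_dvd.mp hc1) _

theorem thompsonA_map [Finite G] {H : Type u} [Group H] (f : G →* H) {P : Subgroup G} (hP : IsPGroup p P)
    (hf : ∀ x ∈ P, f x = 1 → x = 1) :
    thompsonSubgroupAOf (P.map f) = (thompsonSubgroupAOf P).map f := by
  have hinj : Function.Injective (f.comp P.subtype) := by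
    rw [injective_iff_map_eq_one]
    exact fun x hx => Subtype.ext (hf x x.2 hx)
  have htop : IsPGroup p (⊤ : Subgroup P) := hP.to_subgroup ⊤
  have h1 := wOf_map jA (jA_equiv (p := p)) (f.comp P.subtype) hinj ⊤ htop
  have h2 := wOf_map jA (jA_equiv (p := p)) P.subtype P.subtype_injective ⊤ htop
  rw [← MonoidHom.range_eq_map, MonoidHom.range_comp, Subgroup.range_subtype, ← Subgroup.map_map] at h1
  rw [← MonoidHom.range_eq_map, Subgroup.range_subtype] at h2
  rw [← h2] at h1
  exact h1

theorem thompsonA_ne_bot [Finite G] {P : Subgroup G} (hP : P ≠ ⊥) : thompsonSubgroupAOf P ≠ ⊥ := by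
  obtain ⟨B, hB⟩ := exists_isMaxAb P
  intro h
  have hB1 : B = ⊥ := le_bot_iff.mp ((le_thompsonA hB).trans h.le)
  obtain ⟨x, hx, hx1⟩ := (Subgroup.ne_bot_iff_exists_ne_one.mp hP) |> fun ⟨x, hx⟩ => (⟨x.1, x.2, fun e => hx (Subtype.ext e)⟩ : ∃ x, x ∈ P ∧ x ≠ 1)
  have hc := hB.max (Subgroup.zpowers x) (Subgroup.zpowers_le.mpr hx) (by
    rintro _ ⟨i, rfl⟩ _ ⟨j, rfl⟩
    exact (Commute.zpow_zpow_self x i j).eq)
  rw [hB1, Subgroup.card_bot, Nat.card_zpowers] at hc
  exact hx1 (orderOf_eq_one_iff.mp (le_antisymm hc (orderOf_pos x)))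

variable [Finite G]

theorem thompsonA_conj (S : Subgroup G) (hS : IsPGroup p S) (g : G) :
    thompsonSubgroupAOf (S.map (MulAut.conj g).toMonoidHom) =
      (thompsonSubgroupAOf S).map (MulAut.conj g).toMonoidHom :=
  thompsonA_map _ hS fun x _ hx => (MulAut.conj g).injective (by rw [map_one]; exact hx)

theorem Hyp.conj {S : Sylow p G} (h : Hyp p (S : Subgroup G)) (S' : Sylow p G) : Hyp p (S' : Subgroup G) := by
  obtain ⟨c, hc⟩ := MulAction.exists_smul_eq G S S'
  have hS' : (S' : Subgroup G) = (S : Subgroup G).map (MulAut.conj c).toMonoidHom := by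
    rw [← hc]; rfl
  intro g hg hgp
  rw [hS', thompsonA_conj _ S.2 c] at hg ⊢
  set J := thompsonSubgroupAOf (S : Subgroup G)
  have hg' : c⁻¹ * g * c ∈ Subgroup.normalizer (J : Set G) := by
    rw [Transfer.normalizer_map_conj] at hg
    obtain ⟨m, hm, rfl⟩ := hg
    simpa [mul_assoc] using hm
  have h1 := h _ hg' (by
    rw [show c⁻¹ * g * c = (MulAut.conj c⁻¹).toMonoidHom g by simp,
      orderOf_injective _ (MulAut.conj c⁻¹).injective]
    exact hgp)
  rintro _ ⟨j, hj, rfl⟩
  have h2 := congrArg (MulAut.conj c) (h1 j hj)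
  simp only [map_mul, MulAut.conj_apply] at h2 ⊢
  simpa [mul_assoc] using h2

theorem Hyp.subgroup {S : Sylow p G} (h : Hyp p (S : Subgroup G)) {H : Subgroup G}
    (hSH : (S : Subgroup G) ≤ H) : Hyp p ((S.subtype hSH : Sylow p H) : Subgroup H) := by
  set S' : Sylow p H := S.subtype hSH
  have hmap : (S' : Subgroup H).map H.subtype = (S : Subgroup G) := by
    rw [Sylow.coe_subtype, Subgroup.subgroupOf_map_subtype, inf_eq_left.mpr hSH]
  have hJ : (thompsonSubgroupAOf (S' : Subgroup H)).map H.subtype = thompsonSubgroupAOf (S : Subgroup G) := by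
    rw [← thompsonA_map H.subtype S'.2 (fun x _ hx => Subtype.ext hx), hmap]
  intro g hg hgp x hx
  have hg' : (g : G) ∈ Subgroup.normalizer (thompsonSubgroupAOf (S : Subgroup G) : Set G) := by
    rw [← hJ]; exact Subgroup.le_normalizer_map H.subtype ⟨g, hg, rfl⟩
  exact Subtype.ext (h g hg' (by rw [Subgroup.orderOf_coe]; exact hgp) x (by rw [← hJ]; exact ⟨x, hx, rfl⟩))

/-- If `J(S)` lies in a subgroup with a complement containing its normalizer, the condition holds. -/
theorem hyp_of_local {S : Subgroup G} (hS : IsPGroup p S)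
    (h : HasNormalPComplement p (Subgroup.normalizer (thompsonSubgroupAOf S : Set G))) : Hyp p S := by
  intro g hg hgp x hx
  set N := Subgroup.normalizer (thompsonSubgroupAOf S : Set G)
  have hJN : thompsonSubgroupAOf S ≤ N := Subgroup.le_normalizer
  have h1 := mem_centralizer_of_hasNormalPComplement h (Q := (thompsonSubgroupAOf S).subgroupOf N)
    ((hS.to_le (Subgroup.map_subtype_le _)).comap_subtype) (g := ⟨g, hg⟩)
    (by rw [Subgroup.normalizer_eq_top_iff.mpr Subgroup.normal_in_normalizer]; trivial)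
    (by rwa [← Subgroup.orderOf_coe])
  exact congrArg Subtype.val (h1 ⟨x, hJN hx⟩ hx)

end Cfsg.Agent.Transfer.ThompsonPC
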