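import Cfsg.Agent.Transfer.ThompsonPC.Config
import Cfsg.Agent.Transfer.ThompsonPC.Setup
import Cfsg.Agent.Transfer.ThompsonPC.FixedFree
import Cfsg.Agent.Coprime.Conjugacy
import Cfsg.Agent.Coprime.Action

/-! The last step: an abelian section `N̄` acted on faithfully by a largest abelian subgroup. -/

set_option autoImplicit false
set_option linter.style.haveILetI false

namespace Cfsg.Agent.Transfer.ThompsonPC

open Cfsg Cfsg.Agent Cfsg.Agent.FusionZJ Subgroup
open scoped commutatorElement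

universe u

variable {G : Type u} [Group G] [Finite G] {p : ℕ} [hp : Fact p.Prime]

theorem endgame_false (hp5 : 5 ≤ p) {S A Q : Subgroup G} [Q.Normal] (hS : IsPGroup p S) (hQS : Q ≤ S)
    (hA : IsMaxAb S A) (hCQ : Subgroup.centralizer (Q : Set G) ≤ Q) (X : Subgroup (G ⧸ Q))
    (hXab : ∀ x ∈ X, ∀ y ∈ X, x * y = y * x) (hXp : (Nat.card X).Coprime p) (hX : X ≠ ⊥)
    (hXA : A.map (QuotientGroup.mk' Q) ≤ Subgroup.normalizer (X : Set (G ⧸ Q)))
    (hirr : ∀ Y : Subgroup (G ⧸ Q), Y ≤ X → A.map (QuotientGroup.mk' Q) ≤ Subgroup.normalizer (Y : Set (G ⧸ Q)) →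
      Y = ⊥ ∨ Y = X)
    (hmove : ∃ d ∈ A.map (QuotientGroup.mk' Q), ∃ x ∈ X, d * x ≠ x * d) : False := by
  classical
  set π := QuotientGroup.mk' Q with hπ
  have hπs := QuotientGroup.mk'_surjective Q
  set Ab := A.map π with hAb
  have hAp : IsPGroup p Ab := (hS.to_le hA.le).map π
  have hAbc : ∀ u ∈ Ab, ∀ v ∈ Ab, u * v = v * u := by
    rintro _ ⟨u, hu, rfl⟩ _ ⟨v, hv, rfl⟩
    rw [← map_mul, ← map_mul, hA.comm u hu v hv]
  -- the action
  let φ : Ab →* MulAut X :=
    { toFun := fun d =>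
        { toFun := fun x => ⟨(d : G ⧸ Q) * x * (d : G ⧸ Q)⁻¹, (Subgroup.mem_normalizer_iff.mp (hXA d.2) x).mp x.2⟩
          invFun := fun x => ⟨(d : G ⧸ Q)⁻¹ * x * (d : G ⧸ Q), (Subgroup.mem_normalizer_iff''.mp (hXA d.2) x).mp x.2⟩
          left_inv := fun x => Subtype.ext (by simp [mul_assoc])
          right_inv := fun x => Subtype.ext (by simp [mul_assoc])
          map_mul' := fun x y => Subtype.ext (by simp [mul_assoc]) }
      map_one' := MulEquiv.ext fun x => Subtype.ext (by simp)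
      map_mul' := fun d e => MulEquiv.ext fun x => Subtype.ext (by simp [mul_assoc]) }
  have hφapp : ∀ (d : Ab) (x : X), φ d x = x ↔ (d : G ⧸ Q) * x = x * d := by
    intro d x
    rw [← mul_inv_eq_iff_eq_mul]
    exact ⟨fun h => congrArg Subtype.val h, fun h => Subtype.ext h⟩
  set K := φ.ker with hK
  have hKmem : ∀ d : Ab, d ∈ K ↔ ∀ x ∈ X, (d : G ⧸ Q) * x = x * d := by
    intro d
    rw [hK, MonoidHom.mem_ker]
    constructor
    · intro h x hx
      exact (hφapp d ⟨x, hx⟩).mp (by rw [h]; rfl)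
    · intro h
      refine MulEquiv.ext fun x => ?_
      exact (hφapp d x).mpr (h _ x.2)
  have hfixbot : ∀ d : Ab, d ∉ K → ∀ x ∈ X, (d : G ⧸ Q) * x = x * d → x = 1 := by
    intro d hd x hx hdx
    set Y := X ⊓ Subgroup.centralizer ({(d : G ⧸ Q)} : Set (G ⧸ Q))
    have hYn : Ab ≤ Subgroup.normalizer (Y : Set (G ⧸ Q)) := by
      refine (le_inf hXA fun e he => Subgroup.mem_normalizer_iff.mpr fun y => ?_).trans
        Subgroup.inf_normalizer_le_normalizer_inf
      have hde : Commute (d : G ⧸ Q) e := hAbc d d.2 e he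
      rw [Subgroup.mem_centralizer_singleton_iff, Subgroup.mem_centralizer_singleton_iff]
      constructor
      · intro h
        exact (((hde.mul_right (Commute.symm h)).mul_right hde.inv_right).symm).eq
      · intro h
        have := ((hde.inv_right.mul_right (Commute.symm h)).mul_right hde).symm.eq
        simpa [mul_assoc] using this
    rcases hirr Y inf_le_left hYn with h | h
    · have : x ∈ Y := ⟨hx, Subgroup.mem_centralizer_singleton_iff.mpr hdx.symm⟩
      rw [h] at this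
      exact Subgroup.mem_bot.mp this
    · exfalso
      refine hd ((hKmem d).mpr fun y hy => ?_)
      exact (Subgroup.mem_centralizer_singleton_iff.mp (h.ge hy).2).symm
  -- the image is cyclic
  haveI : Nontrivial X := (Subgroup.nontrivial_iff_ne_bot X).mpr hX
  have hcommq : ∀ u v : Ab ⧸ K, u * v = v * u := fun u v => by
    induction u using QuotientGroup.induction_on with
    | _ u =>
    induction v using QuotientGroup.induction_on with
    | _ v => rw [← QuotientGroup.mk_mul, ← QuotientGroup.mk_mul, show u * v = v * u from Subtype.ext (hAbc u u.2 v v.2)]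
  have hcyc : IsCyclic (Ab ⧸ K) := by
    refine isCyclic_of_fixedFree_mulAut (fun x y => Subtype.ext (hXab x x.2 y y.2)) (p := p)
      (hAp.to_quotient K) hcommq hXp (QuotientGroup.kerLift φ) fun g => ?_
    induction g using QuotientGroup.induction_on with
    | _ d =>
    intro hg x hx
    have hd : d ∉ K := fun h => hg ((QuotientGroup.eq_one_iff d).mpr h)
    exact Subtype.ext (hfixbot d hd _ x.2 ((hφapp d x).mp hx))
  obtain ⟨q, hq⟩ := hcyc.exists_generator
  obtain ⟨ab, rfl⟩ := QuotientGroup.mk'_surjective K q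
  obtain ⟨a, ha, hab⟩ := ab.2
  obtain ⟨d₀, hd₀, x₀, hx₀, hne₀⟩ := hmove
  have hgen : ∀ d : Ab, ∃ i : ℕ, (ab ^ i)⁻¹ * d ∈ K := by
    intro d
    obtain ⟨i, hi⟩ := mem_powers_iff_mem_zpowers.mpr (hq (QuotientGroup.mk d))
    refine ⟨i, QuotientGroup.eq.mp ?_⟩
    rw [QuotientGroup.mk_pow]; exact hi
  have habK : ∀ i, 1 ≤ i → i ≤ 6 → i ≠ 5 → ab ^ i ∉ K := by
    intro i h1 h2 h5 hi
    have hpi : ¬ p ∣ i := fun h => by
      have := Nat.le_of_dvd (by omega) h
      rcases Nat.lt_or_ge p 6 with hlt | hge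
      · have : p = 5 := by omega
        subst this
        obtain ⟨c, rfl⟩ := h
        omega
      · have : p = 6 := by omega
        exact absurd hp.out (by rw [this]; norm_num)
    obtain ⟨e, he⟩ := hAp ab
    obtain ⟨u, v, huv⟩ := (Nat.prime_iff_prime_int.mp hp.out).coprime_iff_not_dvd.mpr
      (show ¬ (p : ℤ) ∣ (i : ℤ) from fun h => hpi (Int.natCast_dvd_natCast.mp h)) |>.pow_left (m := e)
    have habmem : ab ∈ K := by
      have e1 : ab = (ab ^ ((p ^ e : ℕ) : ℤ)) ^ u * (ab ^ (i : ℤ)) ^ v := by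
        rw [← zpow_mul, ← zpow_mul, ← zpow_add]
        conv_lhs => rw [← zpow_one ab]
        congr 1
        push_cast; linarith
      rw [e1, zpow_natCast, he, one_zpow, one_mul, zpow_natCast]
      exact K.zpow_mem hi v
    apply hne₀
    obtain ⟨j, hj⟩ := hgen ⟨d₀, hd₀⟩
    exact (hKmem ⟨d₀, hd₀⟩).mp (by simpa using K.mul_mem (K.pow_mem habmem j) hj) x₀ hx₀
  -- the subgroups of the configuration
  set B := K.map Ab.subtype with hB
  have hBA : B ≤ Ab := Subgroup.map_subtype_le _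
  have hBX : ∀ b ∈ B, ∀ x ∈ X, b * x = x * b := by
    rintro _ ⟨d, hd, rfl⟩ x hx
    exact (hKmem d).mp hd x hx
  set H := (X ⊔ Ab).comap π with hH
  set O := (B.comap π).subgroupOf H with hO
  set L := ((X ⊔ B).comap π).subgroupOf H with hL
  set S₂ := (Ab.comap π).subgroupOf H with hS₂
  have hABS : Ab.comap π ≤ S := by
    intro g ⟨c, hc, hcg⟩
    have : c⁻¹ * g ∈ Q := QuotientGroup.eq.mp hcg
    simpa using S.mul_mem (hA.le hc) (hQS this)
  have hAbH : Ab.comap π ≤ H := Subgroup.comap_mono le_sup_right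
  have hAH : A ≤ H := fun c hc => hAbH ⟨c, hc, rfl⟩
  have hnB : X ⊔ Ab ≤ Subgroup.normalizer (B : Set (G ⧸ Q)) := by
    refine sup_le (fun x hx => Subgroup.mem_normalizer_iff.mpr fun b => ?_) fun e he =>
      Subgroup.mem_normalizer_iff.mpr fun b => ?_
    · constructor
      · intro hb
        rwa [← hBX b hb x hx, mul_inv_cancel_right]
      · intro hb
        have h1 := hBX _ hb x hx
        have : x * b * x⁻¹ = b := by
          have h2 : x * b * x⁻¹ * x = x * (x * b * x⁻¹) := h1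
          simp only [inv_mul_cancel_right] at h2
          exact (mul_left_cancel h2).symm
        rwa [this] at hb
    · constructor
      · intro hb
        rwa [← hAbc b (hBA hb) e he, mul_inv_cancel_right]
      · intro hb
        have h1 := hAbc _ (hBA hb) e he
        have : e * b * e⁻¹ = b := by
          have h2 : e * b * e⁻¹ * e = e * (e * b * e⁻¹) := h1
          simp only [inv_mul_cancel_right] at h2
          exact (mul_left_cancel h2).symm
        rwa [this] at hb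
  have hnX : X ⊔ Ab ≤ Subgroup.normalizer (X : Set (G ⧸ Q)) := sup_le Subgroup.le_normalizer hXA
  have hBH : B.comap π ≤ H := (Subgroup.comap_mono hBA).trans hAbH
  have hLH : (X ⊔ B).comap π ≤ H := Subgroup.comap_mono (sup_le_sup_left hBA X)
  haveI : O.Normal := by
    refine ⟨fun x hx g => ?_⟩
    rw [hO, Subgroup.mem_subgroupOf, Subgroup.mem_comap] at hx ⊢
    simp only [Subgroup.coe_mul, Subgroup.coe_inv, map_mul, map_inv]
    exact (Subgroup.mem_normalizer_iff.mp (hnB g.2) _).mp hx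
  haveI : L.Normal := by
    have hnXB : X ⊔ Ab ≤ Subgroup.normalizer ((X ⊔ B : Subgroup (G ⧸ Q)) : Set (G ⧸ Q)) :=
      (le_inf hnX hnB).trans (Subgroup.normalizer_inf_normalizer_le_normalizer_sup X B)
    refine ⟨fun x hx g => ?_⟩
    rw [hL, Subgroup.mem_subgroupOf, Subgroup.mem_comap] at hx ⊢
    simp only [Subgroup.coe_mul, Subgroup.coe_inv, map_mul, map_inv]
    exact (Subgroup.mem_normalizer_iff.mp (hnXB g.2) _).mp hx
  have hBnX : B ≤ Subgroup.normalizer (X : Set (G ⧸ Q)) := hBA.trans hXA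
  have hdec : ∀ y ∈ X ⊔ B, ∃ x ∈ X, ∃ b ∈ B, y = x * b := by
    intro y hy
    obtain ⟨x, hx, b, hb, he⟩ := Coprime.exists_mul_of_mem_sup hBnX hy
    exact ⟨x, hx, b, hb, he.symm⟩
  have hcomXB : ∀ u ∈ X ⊔ B, ∀ v ∈ X ⊔ B, u * v = v * u :=
    sup_comm_of hXab (fun b hb c hc => hAbc b (hBA hb) c (hBA hc)) (fun x hx b hb => (hBX b hb x hx).symm)
  have hA₂ : IsMaxAb S₂ (A.subgroupOf H) := by
    refine ⟨fun x hx => ⟨(x : G), hx, rfl⟩, fun x hx y hy => Subtype.ext (hA.comm x hx y hy), fun C hC hCc => ?_⟩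
    rw [Nat.card_congr (Subgroup.subgroupOfEquivOfLe hAH).toEquiv,
      ← Subgroup.card_map_of_injective H.subtype_injective (K := C)]
    refine hA.max _ ?_ ?_
    · rintro _ ⟨c, hc, rfl⟩
      exact hABS (hC hc)
    · rintro _ ⟨c, hc, rfl⟩ _ ⟨c', hc', rfl⟩
      exact congrArg Subtype.val (hCc c hc c' hc')
  have hrel : (O.relIndex L).Coprime p := by
    rw [hO, hL, Subgroup.relIndex_subgroupOf hLH,
      Subgroup.relIndex_comap, Subgroup.map_comap_eq_self_of_surjective hπs]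
    have h1 := Coprime.card_sup hBnX (Coprime.inf_eq_bot_of_coprime (by
      obtain ⟨r, hr⟩ := IsPGroup.iff_card.mp (hAp.to_le hBA)
      rw [hr]; exact (hXp.symm).pow_left r))
    have h2 : B.relIndex (X ⊔ B) * Nat.card B = Nat.card ↥(X ⊔ B) := by
      rw [mul_comm, ← Nat.card_congr (Subgroup.subgroupOfEquivOfLe (le_sup_right : B ≤ X ⊔ B)).toEquiv,
        Subgroup.relIndex, Subgroup.card_mul_index]
    rw [h1] at h2
    rwa [Nat.eq_of_mul_eq_mul_right Nat.card_pos h2]
  refine config_false (G := H) hp5 (S := S₂) (O := O) (L := L) (A := A.subgroupOf H) (a := ⟨a, hAH ha⟩)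
    ?_ ?_ ?_ hrel hA₂ ha ?_ ?_ ?_
  · exact IsPGroup.of_injective (hS.to_le hABS) ((H.subtype.comp S₂.subtype).codRestrict _ fun x => x.2)
      fun x y h => Subtype.ext (Subtype.ext (congrArg Subtype.val h :))
  · exact fun x hx => hBA hx
  · rw [Subgroup.commutator_le]
    intro u hu v hv
    rw [hO, Subgroup.mem_subgroupOf, Subgroup.mem_comap]
    have hcomm := hcomXB _ hu _ hv
    simp only [commutatorElement_def, Subgroup.coe_mul, Subgroup.coe_inv, map_mul, map_inv]
    have hcomm' : π (u : G) * π (v : G) = π (v : G) * π (u : G) := hcomm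
    rw [hcomm', mul_inv_cancel_right, mul_inv_cancel]
    exact one_mem B
  · intro d hd
    obtain ⟨i, hi⟩ := hgen ⟨π d, (d : G), hd, rfl⟩
    refine ⟨i, ⟨_, hi, ?_⟩⟩
    simp [← hab]
  · intro i h1 h2 h5 l hl hcl
    obtain ⟨x, hx, b, hb, he⟩ := hdec _ hl
    have hai : ((ab ^ i : Ab) : G ⧸ Q) = π (a ^ i) := by simp [← hab]
    have hab' : (ab ^ i : Ab).1 * b = b * (ab ^ i : Ab).1 := hAbc _ (ab ^ i : Ab).2 b (hBA hb)
    have hcl' : ⁅((ab ^ i : Ab) : G ⧸ Q), x * b⁆ ∈ B := by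
      rw [hai, ← he, ← map_commutatorElement]; exact hcl
    have e : ⁅((ab ^ i : Ab) : G ⧸ Q), x * b⁆ = ⁅((ab ^ i : Ab) : G ⧸ Q), x⁆ := by
      rw [commutatorElement_def, commutatorElement_def]
      rw [show ((ab ^ i : Ab) : G ⧸ Q) * (x * b) * ((ab ^ i : Ab) : G ⧸ Q)⁻¹ * (x * b)⁻¹ =
        ((ab ^ i : Ab) : G ⧸ Q) * x * ((b * ((ab ^ i : Ab) : G ⧸ Q)⁻¹) * b⁻¹) * x⁻¹ by group]
      rw [show b * ((ab ^ i : Ab) : G ⧸ Q)⁻¹ * b⁻¹ = ((ab ^ i : Ab) : G ⧸ Q)⁻¹ from
        mul_inv_eq_iff_eq_mul.mpr (Commute.inv_left hab').eq.symm]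
    rw [e] at hcl'
    have hcX : ⁅((ab ^ i : Ab) : G ⧸ Q), x⁆ ∈ X := by
      rw [commutatorElement_def]
      exact X.mul_mem ((Subgroup.mem_normalizer_iff.mp (hXA (ab ^ i : Ab).2) x).mp hx) (X.inv_mem hx)
    have hz : ⁅((ab ^ i : Ab) : G ⧸ Q), x⁆ = 1 := by
      have h1 := Subgroup.inf_eq_bot_of_coprime (H := X) (K := B) (by
        obtain ⟨r, hr⟩ := IsPGroup.iff_card.mp (hAp.to_le hBA)
        rw [hr]; exact hXp.pow_right r)
      exact Subgroup.mem_bot.mp (h1 ▸ Subgroup.mem_inf.mpr ⟨hcX, hcl'⟩)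
    have hx1 := hfixbot _ (habK i h1 h2 h5) x hx (commutatorElement_eq_one_iff_mul_comm.mp hz)
    rw [hO, Subgroup.mem_subgroupOf, Subgroup.mem_comap]
    show π (H.subtype l) ∈ B
    rw [he, hx1, one_mul]
    exact hb
  · obtain ⟨x, hx, hx1⟩ : ∃ x ∈ X, x ≠ 1 := by
      by_contra h
      push Not at h
      exact hX ((Subgroup.eq_bot_iff_forall X).mpr h)
    obtain ⟨g, hg⟩ := hπs x
    obtain ⟨c, hc1, hc2⟩ := exists_pow_coprime (p := p) π g (by
      rw [hg]; exact Nat.Coprime.coprime_dvd_left (Subgroup.orderOf_dvd_natCard X hx) hXp)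
    have hgH : g ^ c ∈ H := by
      rw [hH, Subgroup.mem_comap, hc1, hg]; exact Subgroup.mem_sup_left hx
    refine ⟨⟨g ^ c, hgH⟩, ?_, by rwa [← Subgroup.orderOf_coe], ?_⟩
    · rw [hL, Subgroup.mem_subgroupOf, Subgroup.mem_comap]
      show π (g ^ c) ∈ X ⊔ B
      rw [hc1, hg]; exact Subgroup.mem_sup_left hx
    by_contra hall
    push Not at hall
    apply hx1
    have hgQ : g ^ c ∈ Q := hCQ fun o ho => by
      have hoH : o ∈ H := hBH (show π o ∈ B by rw [show π o = 1 from (QuotientGroup.eq_one_iff o).mpr ho]; exact one_mem B)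
      have h := hall ⟨o, hoH⟩ (show π o ∈ B by
        rw [show π o = 1 from (QuotientGroup.eq_one_iff o).mpr ho]; exact one_mem B)
      exact (congrArg Subtype.val h.eq).symm
    rw [← hg, ← hc1]
    exact (QuotientGroup.eq_one_iff _).mpr hgQ

end Cfsg.Agent.Transfer.ThompsonPC
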