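import Cfsg.Agent.FusionZJ.Offender
import Mathlib.Tactic.Group

/-! Thompson's replacement count: every element of `[x, A]` is `[x, d]` modulo `A`. -/

set_option autoImplicit false

namespace Cfsg.Agent.Transfer.ThompsonPC

open Subgroup Cfsg.Agent.FusionZJ
open scoped commutatorElement

variable {G : Type*} [Group G]

/-- The subgroup generated by the commutators `⁅x, d⁆`, `d ∈ A`. -/
abbrev commSet (x : G) (A : Subgroup G) : Subgroup G :=
  Subgroup.closure ((fun d => ⁅x, d⁆) '' (A : Set G))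

theorem conj_comm (x b c : G) : b * ⁅x, c⁆ * b⁻¹ = ⁅x, b⁆⁻¹ * ⁅x, b * c⁆ := by
  simp only [commutatorElement_def]; group

theorem comm_conj_right (x b c : G) : ⁅x, b⁆⁻¹ * ⁅x, c⁆ = b * ⁅x, b⁻¹ * c⁆ * b⁻¹ := by
  simp only [commutatorElement_def]; group

/-- If `[x, d] ∈ A` and `[x, A]` is abelian, then `d` centralizes `[x, A]`. -/
theorem mem_centralizer_of_comm_mem {P A : Subgroup G} (hA : IsMaxAb P A) {x d : G} (hd : d ∈ A)
    (hM : ∀ y ∈ commSet x A, ∀ z ∈ commSet x A, y * z = z * y) (hxd : ⁅x, d⁆ ∈ A) :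
    d ∈ Subgroup.centralizer (commSet x A : Set G) := by
  rw [commSet, Subgroup.centralizer_closure, Subgroup.mem_centralizer_iff]
  rintro _ ⟨c, hc, rfl⟩
  have hm : ∀ e ∈ A, ⁅x, e⁆ ∈ commSet x A := fun e he => Subgroup.subset_closure ⟨e, he, rfl⟩
  have h1 : c * ⁅x, d⁆ * c⁻¹ = ⁅x, d⁆ := by rw [hA.comm c hc _ hxd, mul_inv_cancel_right]
  rw [conj_comm, inv_mul_eq_iff_eq_mul] at h1
  have h2 : d * ⁅x, c⁆ * d⁻¹ = ⁅x, c⁆ := by
    rw [conj_comm, hA.comm d hd c hc, h1, hM _ (hm c hc) _ (hm d hd), inv_mul_cancel_left]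
  exact (mul_inv_eq_iff_eq_mul.mp h2).symm

/-- Thompson's replacement, as a counting statement. -/
theorem exists_comm_mod [Finite G] {P A : Subgroup G} (hA : IsMaxAb P A) {x : G} (hx : x ∈ P)
    (hM : ∀ y ∈ commSet x A, ∀ z ∈ commSet x A, y * z = z * y) {m : G} (hm : m ∈ commSet x A) :
    ∃ d ∈ A, ⁅x, d⁆⁻¹ * m ∈ A := by
  classical
  set M := commSet x A with hMdef
  set C := A ⊓ Subgroup.centralizer (M : Set G) with hC
  set D := (A.subgroupOf M) with hD
  set E := C.subgroupOf A with hE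
  let θ : A ⧸ E → M ⧸ D := fun q =>
    QuotientGroup.mk ⟨⁅x, (q.out : G)⁆, Subgroup.subset_closure ⟨_, q.out.2, rfl⟩⟩
  have hinj : Function.Injective θ := by
    intro q r h
    have h1 := QuotientGroup.eq.mp h
    rw [hD, Subgroup.mem_subgroupOf] at h1
    simp only [Subgroup.coe_mul, Subgroup.coe_inv] at h1
    rw [comm_conj_right] at h1
    have hb := q.out.2
    have h2 : ⁅x, (q.out : G)⁻¹ * r.out⁆ ∈ A := by
      have := A.mul_mem (A.mul_mem (A.inv_mem hb) h1) hb
      rwa [show (q.out : G)⁻¹ * ((q.out : G) * ⁅x, (q.out : G)⁻¹ * r.out⁆ * (q.out : G)⁻¹) * q.out =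
        ⁅x, (q.out : G)⁻¹ * r.out⁆ by group] at this
    have h3 : q.out⁻¹ * r.out ∈ E := by
      show ((q.out⁻¹ * r.out : A) : G) ∈ C
      exact ⟨(q.out⁻¹ * r.out).2,
        mem_centralizer_of_comm_mem hA (A.mul_mem (A.inv_mem hb) r.out.2) hM h2⟩
    rw [← q.out_eq', ← r.out_eq']
    exact QuotientGroup.eq.mpr h3
  -- the abelian group `M C` is not larger than `A`
  have hMP : M ≤ P := by
    rw [hMdef, commSet, Subgroup.closure_le]
    rintro _ ⟨d, hd, rfl⟩
    have hd' := hA.le hd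
    simp only [SetLike.mem_coe, commutatorElement_def]
    exact P.mul_mem (P.mul_mem (P.mul_mem hx hd') (P.inv_mem hx)) (P.inv_mem hd')
  have hcomm := sup_comm_of (K := M) (L := C) hM (fun a ha b hb => hA.comm a ha.1 b hb.1)
    (fun a ha b hb => hb.2 a ha)
  have hle : Nat.card ↥(M ⊔ C) ≤ Nat.card A :=
    hA.max _ (sup_le hMP (inf_le_left.trans hA.le)) hcomm
  have hDle : C.subgroupOf (M ⊔ C) ≤ (⊤ : Subgroup ↥(M ⊔ C)) := le_top
  have hidx : D.index ≤ E.index := by
    have hMC : M ⊓ A = M ⊓ C := le_antisymm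
      (le_inf inf_le_left (le_inf inf_le_right fun a ha b hb => hM b hb a ha.1))
      (inf_le_inf_left M inf_le_left)
    have hMCc : ∀ (y : M) (z : C), Commute (M.subtype y) (C.subtype z) := fun y z =>
      (Subgroup.mem_inf.mp (show (z : G) ∈ A ⊓ Subgroup.centralizer (M : Set G) from z.2)).2 y y.2
    set ψ : M × C →* G := MonoidHom.noncommCoprod M.subtype C.subtype hMCc with hψ
    have hrange : ψ.range = M ⊔ C := by
      rw [hψ, MonoidHom.noncommCoprod_range, Subgroup.range_subtype, Subgroup.range_subtype]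
    have hker : Nat.card ψ.ker = Nat.card ↥(M ⊓ C) := by
      refine Nat.card_congr
        { toFun := fun z => ⟨(z.1.1 : G), z.1.1.2, ?_⟩
          invFun := fun y => ⟨(⟨y.1, y.2.1⟩, ⟨y.1⁻¹, C.inv_mem y.2.2⟩), ?_⟩
          left_inv := ?_
          right_inv := fun y => rfl }
      · have h := z.2
        rw [MonoidHom.mem_ker] at h
        rw [eq_inv_of_mul_eq_one_left (show (z.1.1 : G) * (z.1.2 : G) = 1 from h)]
        exact C.inv_mem z.1.2.2
      · rw [MonoidHom.mem_ker]
        show y.1 * y.1⁻¹ = 1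
        rw [mul_inv_cancel]
      · intro z
        have h := z.2
        rw [MonoidHom.mem_ker] at h
        refine Subtype.ext (Prod.ext rfl (Subtype.ext ?_))
        show (z.1.1 : G)⁻¹ = z.1.2
        exact inv_eq_of_mul_eq_one_right h
    have h2 : D.index * Nat.card C = Nat.card ↥(M ⊔ C) := by
      have e1 : D.index * Nat.card ↥(M ⊓ C) = Nat.card M := by
        rw [mul_comm, ← hMC, ← Subgroup.card_mul_index D]
        congr 1
        exact Nat.card_congr
          { toFun := fun y => ⟨⟨y.1, y.2.1⟩, y.2.2⟩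
            invFun := fun y => ⟨y.1.1, y.1.2, y.2⟩
            left_inv := fun y => rfl
            right_inv := fun y => rfl }
      have e2 := Subgroup.card_mul_index ψ.ker
      rw [Subgroup.index_ker, hker, hrange, Nat.card_prod, ← e1] at e2
      refine Nat.eq_of_mul_eq_mul_left (Nat.card_pos : 0 < Nat.card ↥(M ⊓ C)) ?_
      rw [e2]; ring
    have h3 : E.index * Nat.card C = Nat.card A := by
      rw [mul_comm, hE, ← Subgroup.card_mul_index (C.subgroupOf A),
        Nat.card_congr (Subgroup.subgroupOfEquivOfLe (inf_le_left : C ≤ A)).toEquiv]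
    refine Nat.le_of_mul_le_mul_right ?_ (Nat.card_pos : 0 < Nat.card C)
    rw [h2, h3]; exact hle
  have hsurj : Function.Surjective θ :=
    ((Nat.bijective_iff_injective_and_card θ).mpr ⟨hinj, le_antisymm
      (Nat.card_le_card_of_injective θ hinj) hidx⟩).2
  obtain ⟨q, hq⟩ := hsurj (QuotientGroup.mk ⟨m, hm⟩)
  refine ⟨q.out, q.out.2, ?_⟩
  have := QuotientGroup.eq.mp hq
  rwa [hD, Subgroup.mem_subgroupOf] at this

end Cfsg.Agent.Transfer.ThompsonPC
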